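import Cfsg.Agent.S4q.A
import Cfsg.Agent.Sq.B1
import Cfsg.Agent.Ud.S1

/-! A standard subgroup `Sp₄(q)`, `q` even: construction of the two factors in the split case. -/

set_option autoImplicit false
set_option linter.unusedSectionVars false

namespace CF.S4q

open Cfsg Subgroup Equiv CF.Loc CF.LX CF.Ud CF.Sq
open CF.Ud.Sx (ch ti)

variable {K : Type} [Field K] [Fintype K] [CharP K 2] {a k : K} {G X : Type*} [Group G] [Finite G] [Group X] [Finite X]
  {ρ : P K →* G} {ρ' : P K →* X} {t : G} {s : X} {z : Fin 8 → KK k → X}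

theorem s_split (d : Dq.Sm K 4) {Γ : Subgroup G} (t2 : t * t = 1) (cm : t ∈ 𝐂(ρ.range)) (c : Γ ≤ 𝐂(cj[t] Γ))
    (l : ρ.range ≤ Γ ⊔ cj[t] Γ) : ∃ ρ₁, Sp1 ρ ρ₁ t := by
  have cc : ∀ (x : Γ) (y : cj[t] Γ), Commute (Γ.subtype x) ((cj[t] Γ).subtype y) := fun x y => (c x.2 y y.2).symm
  obtain ⟨r, e⟩ := B4.lift d (f := Γ.subtype.noncommCoprod (cj[t] Γ).subtype cc) (ρ' := ρ) (.inr (by omega)) (fun ⟨x, y⟩ k => by
    have k : (x : G) = (y : G)⁻¹ := eq_inv_of_mul_eq_one_left k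
    refine mem_center_iff.2 fun ⟨x', y'⟩ => Prod.ext (Subtype.ext ?_) (Subtype.ext ?_)
    · change (x' : G) * x = x * x'
      rw [k]; exact (cc x' y⁻¹).eq
    · change (y' : G) * y = y * y'
      rw [← inv_inv (y : G), ← k]; exact (cc x⁻¹ y').eq.symm) (by
    rw [MonoidHom.noncommCoprod_range, range_subtype, range_subtype]; exact l)
  have e : ∀ g, ((r g).1 : G) * (r g).2 = ρ g := fun g => DFunLike.congr_fun e g
  let r1 : P K →* G := Γ.subtype.comp ((MonoidHom.fst _ _).comp r)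
  let r2 : P K →* G := (cj[t] Γ).subtype.comp ((MonoidHom.snd _ _).comp r)
  have m1 : ∀ g, t * r1 g * t⁻¹ ∈ cj[t] Γ := fun g => conj_mem_cj t (r g).1.2
  have m2 : ∀ g, t * r2 g * t⁻¹ ∈ Γ := fun g => by
    have := mem_cj.1 (r g).2.2; rw [ti t2] at this ⊢; exact this
  have key : ∀ g, (r1 g)⁻¹ * ch t r2 g ∈ cj[t] Γ := fun g => by
    have : t * r2 g * t⁻¹ * (t * r1 g * t⁻¹) = r1 g * r2 g := by
      rw [← c (m2 g) _ (m1 g), ← conj_mul_conj]
      change t * ((r g).1 * (r g).2) * t⁻¹ = (r g).1 * (r g).2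
      rw [e, conj_eq_of_mem_centralizer cm ⟨g, rfl⟩]
    have : (r1 g)⁻¹ * ch t r2 g = r2 g * (t * r1 g * t⁻¹)⁻¹ := by
      rw [inv_mul_eq_iff_eq_mul, ← mul_assoc, ← this, mul_inv_cancel_right]; rfl
    rw [this]; exact mul_mem (r g).2.2 (inv_mem (m1 g))
  have k := hom_eq (B4.perf d) (f := r1) (k := ch t r2) (fun x y => c (r y).1.2 _ (key x)) fun x y => c (m2 y) _ (key x)
  refine ⟨r1, fun g g' => ?_, fun g => ?_⟩
  · have := (c (r g).1.2 _ (m1 g')).symm; rw [ti t2] at this; exact this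
  · rw [← e]
    congr 1
    rw [k]
    change _ = t * (t * r2 g * t⁻¹) * t
    simp [← mul_assoc, t2]; rfl

end CF.S4q
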