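import Cfsg.Agent.S4q.M1
import Cfsg.Agent.S4q.AS0

/-! A standard subgroup `Sp₄(q)`, `q` even: the split case of the doubled root elements. -/

set_option autoImplicit false
set_option linter.unusedSectionVars false

namespace CF.S4q

open Cfsg Subgroup Equiv CF.Loc CF.LX CF.Ud CF.Sq
open CF.Ud.Sx (ch ti)

variable {K : Type} [Field K] [Fintype K] [CharP K 2] {a k : K} {G X : Type*} [Group G] [Finite G] [Group X] [Finite X]
  {ρ : P K →* G} {ρ' : P K →* X} {t : G} {s : X} {z : Fin 8 → KK k → X}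

theorem Ha.dec (p : Ha ρ' s k z) (i : Fin 8) (α : KK k) : z i α = xx ρ' i α.re * z i ⟨0, α.im⟩ := by
  rw [← p.re, ← p.add]; congr 1; ext <;> simp

theorem sk_sk7 (α : KK k) : sk k (sk k α) = α := by cases α; simp [sg_ap, add_assoc, CharTwo.add_self_eq_zero]

theorem Ha.sz (p : Ha ρ' s k z) (i : Fin 8) (α : KK k) : s * z i α * s⁻¹ = z i (sk k α) := by
  have := (p.yi i).tw α.im
  rw [mul_inv_eq_iff_eq_mul, mul_assoc s, ← p.re, ← p.add] at this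
  rw [p.dec i α, conj_mul_conj, conj_eq_of_mem_centralizer p.cm ⟨_, rfl⟩, ti p.t2, mul_assoc s, this, ← mul_assoc s, p.t2, one_mul,
    ← xx, ← p.re, ← p.add]
  congr 1; cases α; ext <;> simp [sg_ap]

theorem Ha.sp1 (d : Dq.Sm K 4) (p : Ha ρ' s k z) (e : a * a + a = k) : ∃ ρ₁, Sp1 ρ' ρ₁ s := by
  have ε2 : (⟨a, 1⟩ : KK k) * ⟨a, 1⟩ = ⟨a, 1⟩ := by ext <;> simp <;> grind
  have sε : ∀ α : KK k, sk k (⟨a, 1⟩ * α) = (1 + ⟨a, 1⟩) * sk k α := fun α => by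
    rw [map_mul]; congr 1; ext <;> simp [sg_ap, add_comm, QuadraticAlgebra.re_one, QuadraticAlgebra.im_one]
  refine s_split d (Γ := closure (Set.range fun q : Fin 8 × KK k => z q.1 (⟨a, 1⟩ * q.2))) p.t2 p.cm ((closure_le _).2 ?_) ?_
  · rintro _ ⟨⟨i, α⟩, rfl⟩ y j
    refine mem_c1.1 ((cj_le_iff.2 ((closure_le _).2 ?_) : _ ≤ 𝐂₁(z i (⟨a, 1⟩ * α))) j)
    rintro _ ⟨⟨j, β⟩, rfl⟩
    rw [SetLike.mem_coe, mem_cj, inv_inv, p.sz, sε, mem_c1]
    exact (p.split ε2 i j _ _).eq.symm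
  · rw [MonoidHom.range_eq_map, map_le_iff_le_comap, top_le_iff]
    refine gen fun i c => mem_comap.2 ?_
    have := p.add i (⟨a, 1⟩ * ⟨c, 0⟩) ((1 + ⟨a, 1⟩) * ⟨c, 0⟩)
    rw [← add_mul, add_comm 1, ← add_assoc, CharTwo.add_self_eq_zero, zero_add, one_mul, p.re, ← sk_sk7 ⟨c, 0⟩, add_comm _ 1, ← sε, ← p.sz] at this
    rw [← xx, this]
    exact mul_mem_sup (subset_closure ⟨(i, _), rfl⟩) (conj_mem_cj _ (subset_closure ⟨(i, _), rfl⟩))

end CF.S4q
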