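import Cfsg.Agent.S4q.M0

/-! A standard subgroup `Sp₄(q)`, `q` even: normal forms in type C. -/

set_option autoImplicit false
set_option linter.unusedSectionVars false

namespace CF.S4q

open Subgroup Equiv CF.Loc CF.LX CF.Ud CF.Sq
open scoped commutatorElement

variable {A Γ Γ' : Type*} [CommRing A] [CharP A 2] [Group Γ] [Group Γ']

/-- the relations `Rc` with an unknown central factor in the last one -/
structure Rd (k : A) (x y z : Fin 8 → A → Γ) (δ : A → Γ) : Prop extends Rt x where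
  sr : ∀ c : A, ∃ a, a * a = c
  zo : ∀ i : Fin 8, Odd i.val → ∀ d, z i d = 1
  xy : ∀ i a b, Commute (x i a) (y i b)
  xz : ∀ i a b, Commute (x i a) (z i b)
  ao : ∀ i : Fin 8, Odd i.val → ∀ a b, y i (a + b) = y i a * y i b
  ae : ∀ j : Fin 8, Even j.val → ∀ a b, y j (a * a) * y j (b * b) = y j ((a + b) * (a + b)) * x j (a * b)
  za : ∀ j : Fin 8, Even j.val → ∀ a b, z j (a + b) = z j a * z j b * x j (k * a * b)
  zy : ∀ j : Fin 8, Even j.val → ∀ d a, z j d * y j (a * a) * (z j d)⁻¹ = y j (a * a) * x j (d * a)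
  adj : ∀ i, ∀ g ∈ Jg x y z i, ∀ h ∈ Jg x y z (i + 1), Commute g h
  o3 : ∀ c a, y 3 c * x 1 a * (y 3 c)⁻¹ = x 1 a * x 2 (c * a)
  o1 : ∀ c a, y 1 c * x 3 a * (y 1 c)⁻¹ = x 3 a * x 2 (c * a)
  y13 : ∀ a b, Commute (y 1 a) (y 3 b)
  x24 : ∀ a, ∀ h ∈ Jg x y z 4, Commute (x 2 a) h
  x42 : ∀ a, ∀ h ∈ Jg x y z 2, Commute (x 4 a) h
  y24 : ∀ a b, y 4 (b * b) * y 2 (a * a) * (y 4 (b * b))⁻¹ = y 2 (a * a) * x 3 (a * b)
  y4z : ∀ c d, (y 4 (c * c))⁻¹ * z 2 d * y 4 (c * c) = z 2 d * y 3 (d * c)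
  y2z : ∀ c d, (y 2 (c * c))⁻¹ * z 4 d * y 2 (c * c) = z 4 d * y 3 (d * c) * x 3 (d * c)
  z42 : ∀ c d, (z 4 c)⁻¹ * z 2 d * z 4 c = z 2 d * x 3 (k * d * c)
  r14 : ∀ a b, x 1 a * y 4 b * (x 1 a)⁻¹ = y 4 b * y 2 (a * a * b) * y 3 (a * b) * x 3 (a * b)
  r41 : ∀ a b, x 4 b * y 1 a * (x 4 b)⁻¹ = y 1 a * y 3 (a * b) * x 2 (k * a * a * b)
  y14 : ∀ a c, y 1 a * y 4 (c * c) * (y 1 a)⁻¹ = y 4 (c * c) * z 2 (a * c) * x 3 (k * a * c * c)
  x1z : ∀ a d, x 1 a * z 4 d * (x 1 a)⁻¹ = z 4 d * z 2 (a * d) * y 3 (k * a * d * d) * x 3 (k * a * d * d)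
  y1z : ∀ a d, y 1 a * z 4 d * (y 1 a)⁻¹ =
    z 4 d * z 2 (a * d) * y 2 (k * k * a * a * d * d) * x 3 (k * k * a * d * d) * x 2 (k * a * a * d * d) * δ (a * a * d * d)
  dc : ∀ c (i : Fin 8), i = 1 ∨ i = 2 ∨ i = 3 ∨ i = 4 → ∀ h ∈ Jg x y z i, Commute (δ c) h

variable {k e : A} {x y z : Fin 8 → A → Γ} {δ : A → Γ} {g : Γ} {i : Fin 8} {S : Subgroup Γ}

namespace C4
omit [CommRing A] [CharP A 2]
theorem Rg_map (f : Γ →* Γ') (x : Fin 8 → A → Γ) (i : Fin 8) : (Rg x i).map f = Rg (fun i a => f (x i a)) i := by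
  rw [Rg, Rg, MonoidHom.map_closure, ← Set.range_comp]; rfl
theorem cjR (h : ∀ a, g * x i a * g⁻¹ ∈ S) : cj[g] (Rg x i) ≤ S :=
  map_le_iff_le_comap.2 ((closure_le _).2 fun _ ⟨a, e⟩ => e ▸ h a)
theorem l1 {a b w : Γ} (h : a * b * a⁻¹ = b * w) : b⁻¹ * a * b⁻¹⁻¹ = w * a := by
  rw [inv_inv, mul_assoc, mul_inv_eq_iff_eq_mul.1 h]; group
theorem l2 {a b : Γ} (h : Commute a b) : a⁻¹ * b * a⁻¹⁻¹ = b := by rw [h.inv_left.eq]; group
theorem l3 {a b : Γ} (h : Commute a b) : a * b * a⁻¹ = b := by rw [h.eq]; group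
end C4
open C4

omit [CharP A 2] in
theorem C4.Jg_map (f : Γ →* Γ') (x y z : Fin 8 → A → Γ) (i : Fin 8) :
    (Jg x y z i).map f = Jg (fun i a => f (x i a)) (fun i a => f (y i a)) (fun i a => f (z i a)) i := by
  simp only [Jg, Subgroup.map_sup, Rg_map]
theorem C4.xJ (i : Fin 8) (a : A) : x i a ∈ Jg x y z i := mem_sup_left (mem_sup_left (x_Rg x i a))
theorem C4.yJ (i : Fin 8) (a : A) : y i a ∈ Jg x y z i := mem_sup_left (mem_sup_right (x_Rg y i a))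
theorem C4.zJ (i : Fin 8) (a : A) : z i a ∈ Jg x y z i := mem_sup_right (x_Rg z i a)
theorem C4.cjJ (h : ∀ a, g * x i a * g⁻¹ ∈ S) (h' : ∀ a, g * y i a * g⁻¹ ∈ S) (h'' : ∀ a, g * z i a * g⁻¹ ∈ S) :
    cj[g] (Jg x y z i) ≤ S := by
  rw [Jg, cj_sup, cj_sup]; exact sup_le (sup_le (cjR h) (cjR h')) (cjR h'')
theorem C4.cm2 (r : Rt x) (xy : ∀ a b, Commute (x i a) (y i b)) (xz : ∀ a b, Commute (x i a) (z i b)) (a : A) :
    ∀ h ∈ Jg x y z i, Commute (x i a) h := fun h j => by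
  have : Jg x y z i ≤ 𝐂₁(x i a) := sup_le (sup_le ((closure_le _).2 fun _ ⟨b, e⟩ => e ▸ mem_centralizer_singleton_iff.2 (by
    rw [← r.add, ← r.add, add_comm])) ((closure_le _).2 fun _ ⟨b, e⟩ => e ▸ mem_centralizer_singleton_iff.2 (xy a b).symm.eq))
    ((closure_le _).2 fun _ ⟨b, e⟩ => e ▸ mem_centralizer_singleton_iff.2 (xz a b).symm.eq)
  exact (mem_centralizer_singleton_iff.1 (this j)).symm

theorem Rc.rd (r : Rc k e x y z) (h : ∀ c : A, ∃ a, a * a = c) : Rd k x y z fun c => x 2 ((e + k) * c) :=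
  { r with
    sr := h
    adj := fun i g a h b => (r.adj i a h b).symm
    x24 := fun a h b => (r.x24 (x_Rg x 2 a) h b).symm
    x42 := fun a h b => (r.x42 (x_Rg x 4 a) h b).symm
    y1z := fun a d => by
      rw [r.y1z, mul_assoc _ (x 2 _), ← r.add]; congr 2
      rw [add_mul, add_left_comm, ← mul_assoc, ← mul_assoc, ← mul_assoc, ← mul_assoc, ← mul_assoc, ← mul_assoc,
        CharTwo.add_self_eq_zero, add_zero]
    dc := fun c i o h b => by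
      rcases o with rfl | rfl | rfl | rfl
      exacts [r.adj 1 b _ (xJ 2 _), cm2 r.toRt (r.xy 2) (r.xz 2) _ h b, (r.adj 2 (xJ 2 _) h b).symm,
        (r.x24 (x_Rg x 2 _) h b).symm] }

theorem Rd.map (r : Rd k x y z δ) (f : Γ →* Γ') :
    Rd k (fun i a => f (x i a)) (fun i a => f (y i a)) (fun i a => f (z i a)) fun c => f (δ c) := by
  have m : ∀ {i g}, g ∈ Jg (fun i a => f (x i a)) (fun i a => f (y i a)) (fun i a => f (z i a)) i → ∃ h ∈ Jg x y z i, f h = g :=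
    fun h => by rwa [← Jg_map] at h
  exact
  { r.toRt.map f with
    sr := r.sr
    zo := fun i o d => by rw [r.zo i o, map_one]
    xy := fun i a b => (r.xy i a b).map f
    xz := fun i a b => (r.xz i a b).map f
    ao := fun i o a b => by rw [r.ao i o, map_mul]
    ae := fun i o a b => by simpa using congrArg f (r.ae i o a b)
    za := fun i o a b => by simpa using congrArg f (r.za i o a b)
    zy := fun i o a b => by simpa using congrArg f (r.zy i o a b)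
    adj := fun i g a h b => by
      obtain ⟨g, a', rfl⟩ := m a; obtain ⟨h, b', rfl⟩ := m b; exact (r.adj i g a' h b').map f
    o3 := fun a b => by simpa using congrArg f (r.o3 a b)
    o1 := fun a b => by simpa using congrArg f (r.o1 a b)
    y13 := fun a b => (r.y13 a b).map f
    x24 := fun a h b => by obtain ⟨h, b', rfl⟩ := m b; exact (r.x24 a h b').map f
    x42 := fun a h b => by obtain ⟨h, b', rfl⟩ := m b; exact (r.x42 a h b').map f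
    y24 := fun a b => by simpa using congrArg f (r.y24 a b)
    y4z := fun a b => by simpa using congrArg f (r.y4z a b)
    y2z := fun a b => by simpa using congrArg f (r.y2z a b)
    z42 := fun a b => by simpa using congrArg f (r.z42 a b)
    r14 := fun a b => by simpa using congrArg f (r.r14 a b)
    r41 := fun a b => by simpa using congrArg f (r.r41 a b)
    y14 := fun a b => by simpa using congrArg f (r.y14 a b)
    x1z := fun a b => by simpa using congrArg f (r.x1z a b)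
    y1z := fun a b => by simpa using congrArg f (r.y1z a b)
    dc := fun c i o h b => by obtain ⟨h, b', rfl⟩ := m b; exact (r.dc c i o h b').map f }

/-- pairs of families -/
abbrev C4.pq (x : Fin 8 → A → Γ) (x' : Fin 8 → A → Γ') : Fin 8 → A → Γ × Γ' := fun i a => (x i a, x' i a)
theorem C4.J_fst {x' y' z' : Fin 8 → A → Γ'} {p : Γ × Γ'} (h : p ∈ Jg (pq x x') (pq y y') (pq z z') i) : p.1 ∈ Jg x y z i :=
  (Jg_map (MonoidHom.fst Γ Γ') (pq x x') (pq y y') (pq z z') i).le (mem_map_of_mem _ h)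
theorem C4.J_snd {x' y' z' : Fin 8 → A → Γ'} {p : Γ × Γ'} (h : p ∈ Jg (pq x x') (pq y y') (pq z z') i) : p.2 ∈ Jg x' y' z' i :=
  (Jg_map (MonoidHom.snd Γ Γ') (pq x x') (pq y y') (pq z z') i).le (mem_map_of_mem _ h)

theorem Rd.prod {x' y' z' : Fin 8 → A → Γ'} {δ' : A → Γ'} (r : Rd k x y z δ) (r' : Rd k x' y' z' δ') :
    Rd k (pq x x') (pq y y') (pq z z') fun c => (δ c, δ' c) where
  add i a b := Prod.ext (r.add i a b) (r'.add i a b)
  c1 i a b := Prod.ext (r.c1 i a b) (r'.c1 i a b)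
  c2 i a b := Prod.ext (r.c2 i a b) (r'.c2 i a b)
  cp i o a b := Prod.ext (r.cp i o a b) (r'.cp i o a b)
  cn i o a b := Prod.ext (r.cn i o a b) (r'.cn i o a b)
  sr := r.sr
  zo i o d := Prod.ext (r.zo i o d) (r'.zo i o d)
  xy i a b := (r.xy i a b).prod (r'.xy i a b)
  xz i a b := (r.xz i a b).prod (r'.xz i a b)
  ao i o a b := Prod.ext (r.ao i o a b) (r'.ao i o a b)
  ae i o a b := Prod.ext (r.ae i o a b) (r'.ae i o a b)
  za i o a b := Prod.ext (r.za i o a b) (r'.za i o a b)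
  zy i o a b := Prod.ext (r.zy i o a b) (r'.zy i o a b)
  adj i g a h b := (r.adj i _ (J_fst a) _ (J_fst b)).prod (r'.adj i _ (J_snd a) _ (J_snd b))
  o3 a b := Prod.ext (r.o3 a b) (r'.o3 a b)
  o1 a b := Prod.ext (r.o1 a b) (r'.o1 a b)
  y13 a b := (r.y13 a b).prod (r'.y13 a b)
  x24 a h b := (r.x24 a _ (J_fst b)).prod (r'.x24 a _ (J_snd b))
  x42 a h b := (r.x42 a _ (J_fst b)).prod (r'.x42 a _ (J_snd b))
  y24 a b := Prod.ext (r.y24 a b) (r'.y24 a b)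
  y4z a b := Prod.ext (r.y4z a b) (r'.y4z a b)
  y2z a b := Prod.ext (r.y2z a b) (r'.y2z a b)
  z42 a b := Prod.ext (r.z42 a b) (r'.z42 a b)
  r14 a b := Prod.ext (r.r14 a b) (r'.r14 a b)
  r41 a b := Prod.ext (r.r41 a b) (r'.r41 a b)
  y14 a b := Prod.ext (r.y14 a b) (r'.y14 a b)
  x1z a b := Prod.ext (r.x1z a b) (r'.x1z a b)
  y1z a b := Prod.ext (r.y1z a b) (r'.y1z a b)
  dc c i o h b := (r.dc c i o _ (J_fst b)).prod (r'.dc c i o _ (J_snd b))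

/-- the groups with indices two and three -/
abbrev W3 (x y z : Fin 8 → A → Γ) : Subgroup Γ := Jg x y z 2 ⊔ Jg x y z 3
/-- the special group -/
abbrev Q3 (x y z : Fin 8 → A → Γ) : Subgroup Γ := Jg x y z 1 ⊔ W3 x y z
/-- a subgroup of the special group -/
abbrev B3 (x y z : Fin 8 → A → Γ) : Subgroup Γ := Rg x 1 ⊔ W3 x y z

namespace Rd
variable (r : Rd k x y z δ)
include r
theorem y0 (i : Fin 8) : y i 0 = 1 := by
  rcases Nat.even_or_odd i.val with o | o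
  · simpa [r.zero] using r.ae i o 0 0
  · simpa using r.ao i o 0 0
theorem z0 (i : Fin 8) : z i 0 = 1 := by
  rcases Nat.even_or_odd i.val with o | o
  · simpa [r.zero] using r.za i o 0 0
  · exact r.zo i o 0
theorem yy (i : Fin 8) (a b : A) : ∃ p, y i a * y i b = y i (a + b) * x i p := by
  rcases Nat.even_or_odd i.val with o | o
  · obtain ⟨a, rfl⟩ := r.sr a; obtain ⟨b, rfl⟩ := r.sr b
    exact ⟨_, by rw [r.ae i o, CharTwo.add_mul_self]⟩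
  · exact ⟨0, by rw [r.ao i o, r.zero, mul_one]⟩
theorem zz (i : Fin 8) (a b : A) : ∃ p, z i a * z i b = z i (a + b) * x i p := by
  rcases Nat.even_or_odd i.val with o | o
  · exact ⟨_, by rw [r.za i o, mul_assoc, r.sq, mul_one]⟩
  · exact ⟨0, by simp [r.zo i o, r.zero]⟩
theorem zy' (i : Fin 8) (d a : A) : ∃ p, z i d * y i a = y i a * x i p * z i d := by
  rcases Nat.even_or_odd i.val with o | o
  · obtain ⟨a, rfl⟩ := r.sr a
    exact ⟨_, mul_inv_eq_iff_eq_mul.1 (r.zy i o d a)⟩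
  · exact ⟨0, by simp [r.zo i o, r.zero]⟩
theorem yi (i : Fin 8) (a : A) : ∃ p, y i a = x i p * (y i a)⁻¹ := by
  obtain ⟨p, e⟩ := r.yy i a a
  exact ⟨p, by rw [eq_mul_inv_iff_mul_eq, e, CharTwo.add_self_eq_zero, r.y0, one_mul]⟩
theorem zi (i : Fin 8) (a : A) : ∃ p, z i a = x i p * (z i a)⁻¹ := by
  obtain ⟨p, e⟩ := r.zz i a a
  exact ⟨p, by rw [eq_mul_inv_iff_mul_eq, e, CharTwo.add_self_eq_zero, r.z0, one_mul]⟩
theorem mem : g ∈ Jg x y z i ↔ ∃ a b c, g = x i a * y i b * z i c := by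
  refine ⟨fun h => ?_, fun ⟨a, b, c, e⟩ => e ▸ mul_mem (mul_mem (xJ _ _) (yJ _ _)) (zJ _ _)⟩
  have m : ∀ {g h : Γ}, (∃ a b c, g = x i a * y i b * z i c) → (∃ a b c, h = x i a * y i b * z i c) →
      ∃ a b c, g * h = x i a * y i b * z i c := by
    rintro _ _ ⟨a, b, c, rfl⟩ ⟨a', b', c', rfl⟩
    obtain ⟨p, e⟩ := r.zy' i c b'
    obtain ⟨p', e'⟩ := r.yy i b b'
    obtain ⟨p'', e''⟩ := r.zz i c c'
    have l : ∀ {u v : Γ}, Commute u v → ∀ g, v * (u * g) = u * (v * g) := fun h g => by rw [← mul_assoc, ← h.eq, mul_assoc]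
    have h1 : ∀ a b g, y i b * (x i a * g) = x i a * (y i b * g) := fun a b => l (r.xy i a b)
    have h2 : ∀ a b g, z i b * (x i a * g) = x i a * (z i b * g) := fun a b => l (r.xz i a b)
    refine ⟨a + a' + p + p' + p'', b + b', c + c', ?_⟩
    calc _ = x i a * x i a' * (y i b * (z i c * y i b') * z i c') := by simp only [mul_assoc, h1, h2]
      _ = x i a * x i a' * x i p * (y i b * y i b' * (z i c * z i c')) := by simp only [e, mul_assoc, h1]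
      _ = _ := by simp only [e', e'', r.add, mul_assoc, h1, ← (r.xz i p'' _).eq]
  have gx : ∀ p, ∃ a b c, x i p = x i a * y i b * z i c := fun p => ⟨p, 0, 0, by simp [r.y0, r.z0]⟩
  have gy : ∀ p, ∃ a b c, y i p = x i a * y i b * z i c := fun p => ⟨0, p, 0, by simp [r.zero, r.z0]⟩
  have gz : ∀ p, ∃ a b c, z i p = x i a * y i b * z i c := fun p => ⟨0, 0, p, by simp [r.zero, r.y0]⟩
  let S : Subgroup Γ :=
    { carrier := {g | ∃ a b c, g = x i a * y i b * z i c}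
      mul_mem' := m
      one_mem' := r.zero i ▸ gx 0
      inv_mem' := by
        rintro _ ⟨a, b, c, rfl⟩
        obtain ⟨p, e⟩ := r.yi i b
        obtain ⟨p', e'⟩ := r.zi i c
        rw [mul_inv_rev, mul_inv_rev, r.inv, ← inv_mul_eq_iff_eq_mul.2 e, ← inv_mul_eq_iff_eq_mul.2 e', r.inv, r.inv]
        exact m (m (gx _) (gz _)) (m (m (gx _) (gy _)) (gx _)) }
  have : Jg x y z i ≤ S := sup_le (sup_le ((closure_le _).2 fun _ ⟨a, e⟩ => e ▸ gx a) ((closure_le _).2 fun _ ⟨a, e⟩ => e ▸ gy a))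
    ((closure_le _).2 fun _ ⟨a, e⟩ => e ▸ gz a)
  exact this h
theorem memo (o : Odd i.val) : g ∈ Jg x y z i ↔ ∃ a b, g = x i a * y i b := by simp [r.mem, r.zo i o]
theorem nJ (h : ∀ a, cj[(x i a)⁻¹] S ≤ S) (h' : ∀ a, cj[(y i a)⁻¹] S ≤ S) (h'' : ∀ a, cj[(z i a)⁻¹] S ≤ S) : Jg x y z i ≤ 𝐍(S) :=
  le_normalizer_iff_cj.2 fun g j => by
    obtain ⟨a, b, c, e⟩ := r.mem.1 (inv_mem j)
    rw [← inv_inv g, e, mul_inv_rev, mul_inv_rev, cj_mul, cj_mul]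
    exact (cj_mono _ ((cj_mono _ (h a)).trans (h' b))).trans (h'' c)
theorem cJ (j : g ∈ Jg x y z i) : cj[g] (Jg x y z (i + 1)) ≤ Jg x y z (i + 1) := cj_le_iff_forall.2 fun h b => by
  rwa [l3 (r.adj i g j h b)]
theorem cJ' (j : g ∈ Jg x y z (i + 1)) : cj[g] (Jg x y z i) ≤ Jg x y z i := cj_le_iff_forall.2 fun h b => by
  rwa [l3 (r.adj i h b g j).symm]
omit r in
theorem x2 (a : A) : x 2 a ∈ W3 x y z := mem_sup_left (xJ _ _)
omit r in
theorem y2 (a : A) : y 2 a ∈ W3 x y z := mem_sup_left (yJ _ _)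
omit r in
theorem z2 (a : A) : z 2 a ∈ W3 x y z := mem_sup_left (zJ _ _)
omit r in
theorem x3 (a : A) : x 3 a ∈ W3 x y z := mem_sup_right (xJ _ _)
omit r in
theorem y3 (a : A) : y 3 a ∈ W3 x y z := mem_sup_right (yJ _ _)
theorem n1 : Jg x y z 1 ≤ 𝐍(W3 x y z) := by
  have k : ∀ g ∈ Jg x y z 1, (∀ a, g⁻¹ * x 3 a * g⁻¹⁻¹ ∈ W3 x y z) → (∀ a, g⁻¹ * y 3 a * g⁻¹⁻¹ ∈ W3 x y z) →
      cj[g⁻¹] (W3 x y z) ≤ W3 x y z := fun g j h h' => by
    rw [cj_sup]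
    exact sup_le ((r.cJ (inv_mem j)).trans le_sup_left) (cjJ h h' fun a => by simp [r.zo 3 (by decide)])
  refine r.nJ (fun a => k _ (xJ _ _) (fun b => ?_) fun b => ?_) (fun a => k _ (yJ _ _) (fun b => ?_) fun b => ?_) fun a => ?_
  · rw [l2 (show Commute (x 1 a) (x 3 b) from r.c2 1 a b)]; exact x3 _
  · rw [l1 (r.o3 b a)]; exact mul_mem (x2 _) (y3 _)
  · rw [inv_eq_of_mul_eq_one_left (a := y 1 a) (b := y 1 a) (by rw [← r.ao 1 (by decide), CharTwo.add_self_eq_zero, r.y0]), r.o1]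
    exact mul_mem (x3 _) (x2 _)
  · rw [l2 (r.y13 a b)]; exact y3 _
  · rw [r.zo 1 (by decide), inv_one, cj_one]
theorem n4 : Jg x y z 4 ≤ 𝐍(W3 x y z) := by
  have k : ∀ g ∈ Jg x y z 4, (∀ a, g⁻¹ * y 2 (a * a) * g⁻¹⁻¹ ∈ W3 x y z) → (∀ a, g⁻¹ * z 2 a * g⁻¹⁻¹ ∈ W3 x y z) →
      cj[g⁻¹] (W3 x y z) ≤ W3 x y z := fun g j h h' => by
    rw [cj_sup]
    refine sup_le (cjJ (fun a => ?_) (fun a => ?_) h') ((r.cJ' (i := 3) (inv_mem j)).trans le_sup_right)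
    · rw [l2 (r.x24 a g j).symm]; exact x2 _
    · obtain ⟨a, rfl⟩ := r.sr a; exact h a
  refine r.nJ (fun a => k _ (xJ _ _) (fun b => ?_) fun b => ?_) (fun a => k _ (yJ _ _) (fun b => ?_) fun b => ?_)
    fun a => k _ (zJ _ _) (fun b => ?_) fun b => ?_
  · rw [l2 (r.x42 a _ (yJ _ _))]; exact y2 _
  · rw [l2 (r.x42 a _ (zJ _ _))]; exact z2 _
  · obtain ⟨a, rfl⟩ := r.sr a
    have e := r.y24 b a
    have : (y 4 (a * a))⁻¹ * y 2 (b * b) * (y 4 (a * a))⁻¹⁻¹ = y 2 (b * b) * (x 3 (b * a))⁻¹ := by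
      rw [← l2 (show Commute (y 4 (a * a)) (x 3 (b * a)) from (r.adj 3 _ (xJ _ _) _ (yJ _ _)).symm), eq_mul_inv_iff_mul_eq]
      calc _ = (y 4 (a * a))⁻¹ * (y 2 (b * b) * x 3 (b * a)) * y 4 (a * a) := by group
        _ = _ := by rw [← e]; group
    rw [this]; exact mul_mem (y2 _) (inv_mem (x3 _))
  · obtain ⟨a, rfl⟩ := r.sr a
    rw [inv_inv, r.y4z]; exact mul_mem (z2 _) (y3 _)
  · have e := r.y2z b a
    have : (z 4 a)⁻¹ * y 2 (b * b) * (z 4 a)⁻¹⁻¹ = y 2 (b * b) * (y 3 (a * b) * x 3 (a * b))⁻¹ := by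
      rw [mul_assoc (z 4 a), ← inv_mul_eq_iff_eq_mul] at e
      rw [← e]; group
    rw [this]; exact mul_mem (y2 _) (inv_mem (mul_mem (y3 _) (x3 _)))
  · rw [inv_inv, r.z42]; exact mul_mem (z2 _) (x3 _)
theorem nB : Jg x y z 4 ≤ 𝐍(B3 x y z) := by
  have k : ∀ g ∈ Jg x y z 4, (∀ a, ∃ w ∈ W3 x y z, x 1 a * g * (x 1 a)⁻¹ = g * w) → cj[g⁻¹] (B3 x y z) ≤ B3 x y z := fun g j h => by
    rw [cj_sup]
    refine sup_le (cjR fun a => ?_) ((cj_eq_self (inv_mem (r.n4 j))).le.trans le_sup_right)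
    obtain ⟨w, b, e⟩ := h a
    rw [l1 e]; exact mul_mem (mem_sup_right b) (mem_sup_left (x_Rg _ _ _))
  exact r.nJ (fun b => k _ (xJ _ _) fun a => ⟨_, mul_mem (x3 _) (x2 _), (r.cn 4 (by decide) a b).trans (mul_assoc ..)⟩)
    (fun b => k _ (yJ _ _) fun a => ⟨_, mul_mem (mul_mem (y2 _) (y3 _)) (x3 _), (r.r14 a b).trans (by rw [mul_assoc (y 4 b), mul_assoc (y 4 b)])⟩)
    fun b => k _ (zJ _ _) fun a => ⟨_, mul_mem (mul_mem (z2 _) (y3 _)) (x3 _), (r.x1z a b).trans (by rw [mul_assoc (z 4 b), mul_assoc (z 4 b)])⟩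
omit r in
theorem BQ : B3 x y z ≤ Q3 x y z := sup_le_sup_right (le_sup_left.trans le_sup_left) _
theorem cQ (j : g ∈ Jg x y z 4) (l : Q3 x y z ≤ S) (h : ∀ a, g * y 1 a * g⁻¹ ∈ S) : cj[g] (Q3 x y z) ≤ S := by
  rw [cj_sup]
  refine sup_le (cjJ (fun a => l (BQ (conj_mem_of_mem_normalizer (r.nB j) (mem_sup_left (x_Rg _ _ _))))) h fun a => ?_)
    ((cj_eq_self (r.n4 j)).le.trans (le_sup_right.trans l))
  simp [r.zo 1 (by decide)]
theorem qx (a : A) : cj[x 4 a] (Q3 x y z) ≤ Q3 x y z := r.cQ (xJ _ _) le_rfl fun b => by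
  rw [r.r41]; exact mul_mem (mul_mem (mem_sup_left (yJ _ _)) (mem_sup_right (y3 _))) (mem_sup_right (x2 _))
theorem qy' (a : A) : cj[(y 4 a)⁻¹] (Q3 x y z) ≤ Q3 x y z := r.cQ (inv_mem (yJ _ _)) le_rfl fun b => by
  obtain ⟨a, rfl⟩ := r.sr a
  rw [l1 ((r.y14 b a).trans (mul_assoc ..))]; exact mul_mem (mem_sup_right (mul_mem (z2 _) (x3 _))) (mem_sup_left (yJ _ _))
theorem qy (a : A) : cj[y 4 a] (Q3 x y z) ≤ Q3 x y z := by
  obtain ⟨p, e⟩ := r.yi 4 a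
  rw [e, cj_mul]; exact (cj_mono _ (r.qy' a)).trans (r.qx p)
theorem dQ (c : A) : Q3 x y z ≤ 𝐂₁(δ c) :=
  have k : ∀ i : Fin 8, i = 1 ∨ i = 2 ∨ i = 3 ∨ i = 4 → Jg x y z i ≤ 𝐂₁(δ c) := fun i o h j =>
    mem_centralizer_singleton_iff.2 (r.dc c i o h j).symm.eq
  sup_le (k _ (by simp)) (sup_le (k _ (by simp)) (k _ (by simp)))
theorem qz (a d : A) : (z 4 d)⁻¹ * y 1 a * (z 4 d)⁻¹⁻¹ * (δ (a * a * d * d))⁻¹ ∈ Q3 x y z := by
  have e := r.y1z a d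
  rw [mul_assoc (z 4 d), mul_assoc (z 4 d), mul_assoc (z 4 d), mul_assoc (z 4 d)] at e
  rw [l1 e, mul_assoc _ (δ _), mul_assoc, l3 (r.dc _ 1 (by simp) _ (yJ _ _))]
  exact mul_mem (mem_sup_right (mul_mem (mul_mem (mul_mem (z2 _) (y2 _)) (x3 _)) (x2 _))) (mem_sup_left (yJ _ _))
omit r in
theorem dD (c : A) : δ c ∈ closure (Set.range δ) := subset_closure ⟨c, rfl⟩
theorem nQ : Jg x y z 4 ≤ 𝐍(Q3 x y z ⊔ closure (Set.range δ)) := by
  have k : ∀ g ∈ Jg x y z 4, cj[g] (Q3 x y z) ≤ Q3 x y z ⊔ closure (Set.range δ) →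
      cj[g] (Q3 x y z ⊔ closure (Set.range δ)) ≤ Q3 x y z ⊔ closure (Set.range δ) := fun g j h => by
    rw [cj_sup]
    refine sup_le h (map_le_iff_le_comap.2 ((closure_le _).2 ?_))
    rintro _ ⟨c, rfl⟩
    show g * δ c * g⁻¹ ∈ Q3 x y z ⊔ closure (Set.range δ)
    rw [l3 (r.dc c 4 (by simp) g j).symm]; exact mem_sup_right (dD c)
  refine r.nJ (fun a => k _ (inv_mem (xJ _ _)) ?_) (fun a => k _ (inv_mem (yJ _ _)) ((r.qy' a).trans le_sup_left))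
    fun d => k _ (inv_mem (zJ _ _)) (r.cQ (inv_mem (zJ _ _)) le_sup_left fun a => ?_)
  · rw [r.inv]; exact (r.qx a).trans le_sup_left
  · simpa using mul_mem (mem_sup_left (T := closure (Set.range δ)) (r.qz a d)) (mem_sup_right (dD (a * a * d * d)))
theorem nf3 (j : g ∈ Q3 x y z) : ∃ a₁ b₁ a₂ b₂ c₂ a₃ b₃, g = x 1 a₁ * y 1 b₁ * (x 2 a₂ * y 2 b₂ * z 2 c₂) * (x 3 a₃ * y 3 b₃) := by
  obtain ⟨u, hu, w, hw, rfl⟩ := (mem_sup_of_le_normalizer' r.n1).1 j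
  obtain ⟨v, hv, w, hw', rfl⟩ := (mem_sup_of_le_normalizer' (H := Jg x y z 2) (N := Jg x y z 3) (le_normalizer_iff_cj.2 fun g => r.cJ (i := 2))).1 hw
  obtain ⟨a, b, rfl⟩ := (r.memo (i := 1) (by decide)).1 hu
  obtain ⟨a', b', c', rfl⟩ := r.mem.1 hv
  obtain ⟨a'', b'', rfl⟩ := (r.memo (i := 3) (by decide)).1 hw'
  exact ⟨a, b, a', b', c', a'', b'', (mul_assoc ..).symm⟩
end Rd

theorem Rc.nf {A Γ : Type*} [CommRing A] [CharP A 2] [Group Γ] {k e : A} {x y z : Fin 8 → A → Γ} (r : Rc k e x y z)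
    (h : ∀ c : A, ∃ a, a * a = c) {g : Γ} (i : g ∈ Vs (Jg x y z) 1) : ∃ a₁ b₁ a₂ b₂ c₂ a₃ b₃ a₄ b₄ c₄,
    g = x 1 a₁ * y 1 b₁ * (x 2 a₂ * y 2 b₂ * z 2 c₂) * (x 3 a₃ * y 3 b₃) * (x 4 a₄ * y 4 b₄ * z 4 c₄) := by
  have n := (r.rd h).nQ
  have : closure (Set.range fun c => x 2 ((e + k) * c)) ≤ Q3 x y z :=
    (closure_le _).2 (by rintro _ ⟨c, rfl⟩; exact mem_sup_right (Rd.x2 _))
  rw [sup_eq_left.2 this] at n
  rw [Vs1, sup_assoc (Jg x y z 1)] at i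
  obtain ⟨q, hq, u, hu, rfl⟩ := (mem_sup_of_le_normalizer n).1 i
  obtain ⟨a₁, b₁, a₂, b₂, c₂, a₃, b₃, rfl⟩ := (r.rd h).nf3 hq
  obtain ⟨a₄, b₄, c₄, rfl⟩ := (r.rd h).mem.1 hu
  exact ⟨_, _, _, _, _, _, _, _, _, _, rfl⟩

end CF.S4q
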