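import Cfsg.Agent.S4q.C4a

/-! A standard subgroup `Sp₄(q)`, `q` even: the last relation in type C, abstract part and model computations. -/

set_option autoImplicit false
set_option linter.unusedSectionVars false

namespace CF.S4q

open Subgroup Equiv CF.Loc CF.LX CF.Ud CF.Sq C4
open scoped commutatorElement

section abstract
variable {A Γ : Type*} [CommRing A] [CharP A 2] [Group Γ] {k : A} {x y z : Fin 8 → A → Γ} {δ : A → Γ}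

/-- reflected families -/
abbrev C4.rv (x : Fin 8 → A → Γ) : Fin 8 → A → Γ := fun i => x (4 - i)

theorem C4.Qr : Q3 (rv x) (rv y) (rv z) = Q3 x y z := by
  show Jg x y z 3 ⊔ (Jg x y z 2 ⊔ Jg x y z 1) = Jg x y z 1 ⊔ (Jg x y z 2 ⊔ Jg x y z 3)
  rw [sup_comm, sup_comm (Jg x y z 2), sup_assoc]

namespace Rd
variable (r : Rd k x y z δ)
include r
theorem DQ : closure (Set.range δ) ≤ 𝐂(Q3 x y z) := (closure_le _).2 (by
  rintro _ ⟨c, rfl⟩ q h; exact mem_centralizer_singleton_iff.1 (r.dQ c h))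
theorem D4 : Jg x y z 4 ≤ 𝐂(closure (Set.range δ)) := le_centralizer_iff.1 ((closure_le _).2 (by
  rintro _ ⟨c, rfl⟩ q h; exact (r.dc c 4 (by simp) q h).symm))
theorem dec {g : Γ} (h : g ∈ Q3 x y z ⊔ closure (Set.range δ)) : ∃ d ∈ closure (Set.range δ), ∃ q ∈ Q3 x y z, d * q = g :=
  (mem_sup_of_le_normalizer' (r.DQ.trans (centralizer_le_normalizer _))).1 (sup_comm (Q3 x y z) _ ▸ h)
theorem tw (p c a b : A) : x 4 p * y 4 c * z 4 1 * (x 1 a * y 1 b) * (x 4 p * y 4 c * z 4 1)⁻¹ * (δ (b * b))⁻¹ ∈ Q3 x y z := by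
  obtain ⟨p', e⟩ := r.zi 4 1
  have h := mul_mem (BQ (conj_mem_of_mem_normalizer (r.nB (inv_mem (zJ 4 1))) (mem_sup_left (x_Rg x 1 a)))) (r.qz b 1)
  have h' := r.qx p (conj_mem_cj _ (r.qy c (conj_mem_cj _ (r.qx p' (conj_mem_cj _ h)))))
  have c : Commute (x 4 p * y 4 c * x 4 p') (δ (b * b))⁻¹ :=
    (r.dc _ 4 (by simp) _ (mul_mem (mul_mem (xJ _ _) (yJ _ _)) (xJ _ _))).symm.inv_right
  rw [mul_one, mul_one] at h'
  rw [← l3 c]; convert h' using 1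
  generalize (z 4 1)⁻¹ = w at e
  rw [e]; group
theorem cm41 (a b : A) : ∃ ε, x 4 1 * (x 1 a * y 1 b) * (x 4 1)⁻¹ * (x 1 a * y 1 b)⁻¹ = x 3 a * y 3 b * x 2 ε := by
  have e1 : (x 4 1)⁻¹ * x 1 a * (x 4 1)⁻¹⁻¹ = x 3 (a * 1) * x 2 (a * a * 1) * x 1 a := l1 ((r.cn 4 (by decide) a 1).trans (mul_assoc ..))
  have e2 := r.r41 b 1
  have e3 := l1 (r.o3 b a)
  have c : ∀ p, ∀ h ∈ Jg x y z 1, Commute (x 2 p) h := fun p h j => (r.adj 1 h j _ (xJ _ _)).symm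
  have c' : ∀ p, ∀ h ∈ Jg x y z 3, Commute (x 2 p) h := fun p h j => r.adj 2 _ (xJ _ _) h j
  rw [r.inv, mul_one, mul_one] at e1
  rw [r.inv] at e3
  rw [mul_one, mul_one] at e2
  refine ⟨a * a + b * a + k * b * b, ?_⟩
  calc _ = x 4 1 * x 1 a * (x 4 1)⁻¹ * (x 4 1 * y 1 b * (x 4 1)⁻¹) * (y 1 b)⁻¹ * (x 1 a)⁻¹ := by group
    _ = x 3 a * x 2 (a * a) * (x 1 a * (y 1 b * y 3 b * (y 1 b)⁻¹) * (x 1 a)⁻¹) *
        (x 1 a * (y 1 b * x 2 (k * b * b) * (y 1 b)⁻¹) * (x 1 a)⁻¹) := by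
      rw [e1, e2]; group
    _ = _ := by
      rw [l3 (r.y13 b b), e3, l3 (c _ _ (yJ _ _)).symm, l3 (c _ _ (xJ _ _)).symm, r.add, r.add, mul_assoc (x 3 a),
        ← mul_assoc (x 2 _), ← r.add, (c' _ _ (yJ _ _)).eq, r.add]
      group
variable (r' : Rd k (rv x) (rv y) (rv z) δ)
include r'
theorem nQ' : Jg x y z 4 ⊔ Jg x y z 0 ≤ 𝐍(Q3 x y z ⊔ closure (Set.range δ)) := sup_le r.nQ (Qr (x := x) ▸ r'.nQ)
theorem core {u : Γ} (j : u ∈ Jg x y z 4) {p c a b N : A}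
    (hr : u * (x 0 p * y 0 c * z 0 1) * x 4 1 * (u * (x 0 p * y 0 c * z 0 1))⁻¹ * (x 0 N)⁻¹ ∈ 𝐂(Q3 x y z))
    (hB : ∀ q ∈ Q3 x y z, q = x 0 p * y 0 c * z 0 1 * (x 3 a * y 3 b) * (x 0 p * y 0 c * z 0 1)⁻¹ * (δ (b * b))⁻¹ → q ∈ B3 x y z) :
    δ (b * b) ∈ Q3 x y z := by
  have t := hB _ (Qr (x := x) ▸ r'.tw p c a b) rfl
  have j0 : x 0 p * y 0 c * z 0 1 ∈ Jg x y z 0 := mul_mem (mul_mem (xJ _ _) (yJ _ _)) (zJ _ _)
  generalize x 0 p * y 0 c * z 0 1 = v at hr t j0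
  have jw : u * v ∈ Jg x y z 4 ⊔ Jg x y z 0 := mul_mem (mem_sup_left j) (mem_sup_right j0)
  have t' := BQ (conj_mem_of_mem_normalizer (r.nB j) t)
  obtain ⟨ε, e⟩ := r.cm41 a b
  obtain ⟨d, hd, q, hq, f⟩ := r.dec (conj_mem_of_mem_normalizer (r.nQ' r' jw)
    (mem_sup_left (mem_sup_left (mul_mem (xJ 1 a) (yJ 1 b)))))
  have cD : Jg x y z 4 ⊔ Jg x y z 0 ≤ 𝐂(closure (Set.range δ)) := sup_le r.D4 r'.D4
  have c2 : Jg x y z 4 ⊔ Jg x y z 0 ≤ 𝐂₁(x 2 ε) := sup_le (fun h i => mem_centralizer_singleton_iff.2 (r.x24 ε h i).symm.eq)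
    fun h i => mem_centralizer_singleton_iff.2 (r'.x24 ε h i).symm.eq
  have jg : u * v * x 4 1 * (u * v)⁻¹ ∈ Jg x y z 4 ⊔ Jg x y z 0 := mul_mem (mul_mem jw (mem_sup_left (xJ _ _))) (inv_mem jw)
  have g1 : u * v * x 4 1 * (u * v)⁻¹ * q * (u * v * x 4 1 * (u * v)⁻¹)⁻¹ ∈ Q3 x y z := by
    have h : x 0 N * q * (x 0 N)⁻¹ ∈ Q3 x y z := by
      have := r'.qx N; rw [Qr] at this; exact this (conj_mem_cj _ hq)
    have := conj_eq_of_mem_centralizer hr h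
    rw [← this] at h; convert h using 1; group
  have g2 : u * v * (x 3 a * y 3 b) * (u * v)⁻¹ ∈ Q3 x y z := by
    have h := mul_mem g1 (inv_mem hq)
    rw [← conj_eq_of_mem_centralizer (r.DQ hd) h] at h
    have h' := mul_mem h (inv_mem (mem_sup_right (x2 ε)))
    rw [← l3 (mem_centralizer_singleton_iff.1 (c2 jw))] at h'
    nth_rw 1 [← conj_eq_of_mem_centralizer (cD jg) hd] at h'
    convert h' using 1
    rw [eq_mul_inv_of_mul_eq e.symm, eq_inv_mul_of_mul_eq f]; group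
  rw [← conj_eq_of_mem_centralizer (r.D4 j) (dD (b * b))]
  convert mul_mem (inv_mem t') g2 using 1; group
end Rd
end abstract

namespace C4
variable {A : Type} [CommRing A] [CharP A 2] {σ : A ≃+* A} {n ζ n' ζ' : A}
theorem hb (i j : ℕ) (h : j < 5 := by omega) : hf σ (bv i : Fin 5 → A) (bv j) = if i + j = 4 then 1 else 0 := by
  have := hf_bv (σ := σ) (bv i : Fin 5 → A) (Fin.rev ⟨j, h⟩)
  rw [Fin.rev_rev] at this
  rw [this, bv, Fin.val_rev]; exact if_congr (by simp only; omega) rfl rfl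
theorem ok (s : Iv σ) (i : ℕ) (e : ζ + σ ζ = n * σ n) (h : i ≠ 2 ∧ i < 5 := by omega) : Ok σ (bv i : Fin 5 → A) (n • bv 2) ζ :=
  ⟨s, by rw [hb _ _ h.2, if_neg (by omega)], by rw [hf_smul_l, hb _ _ h.2, if_neg (by omega), mul_zero],
    by rw [hf_smul_l, hf_smul_r, hb 2 2, e]; simp⟩
theorem ap0 (s : Iv σ) (e : ζ + σ ζ = n * σ n) : E σ (bv 3 : Fin 5 → A) (n • bv 2) ζ (bv 1) = bv 1 + n • bv 2 + ζ • bv 3 := by
  rw [E_ap (ok s 3 e), hf_smul_r, hb 1 3, hb 1 2]; simp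
theorem ap4 (s : Iv σ) (e : ζ' + σ ζ' = n' * σ n') (e1 : 1 + σ n' * n + ζ' * ζ = 0) (e2 : n + ζ * n' = 0) :
    E σ (bv 1 : Fin 5 → A) (n' • bv 2) ζ' (bv 1 + n • bv 2 + ζ • bv 3) = ζ • bv 3 := by
  rw [E_ap (ok s 1 e)]
  simp only [hf_add_l, hf_smul_l, hf_smul_r, hb 1 1, hb 2 1, hb 3 1, hb 1 2, hb 2 2, hb 3 2]
  simp
  linear_combination (norm := module) e1 • (bv 1 : Fin 5 → A) + e2 • (bv 2 : Fin 5 → A)
theorem w41 (s : Iv σ) (e : ζ + σ ζ = n * σ n) (e' : ζ' + σ ζ' = n' * σ n') (e1 : 1 + σ n' * n + ζ' * ζ = 0) (e2 : n + ζ * n' = 0) :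
    E σ (bv 1 : Fin 5 → A) (n' • bv 2) ζ' * E σ (bv 3) (n • bv 2) ζ * E σ (bv 1) 0 1 *
      (E σ (bv 1) (n' • bv 2) ζ' * E σ (bv 3) (n • bv 2) ζ)⁻¹ = E σ (bv 3) 0 (ζ * σ ζ) := by
  rw [tv_cj1 ((E_sem ..).mul1 (E_sem ..)), Perm.mul_apply, ap0 s e, ap4 s e' e1 e2, tv_smul s (hb 3 3) (map_one σ), mul_one]
theorem w03 (s : Iv σ) (e : ζ + σ ζ = n * σ n) (α : A) :
    E σ (bv 3 : Fin 5 → A) (n • bv 2) ζ * E σ (bv 0) (α • bv 1) 0 * (E σ (bv 3) (n • bv 2) ζ)⁻¹ =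
      E σ (bv 0) ((α * ζ) • bv 3) 0 * E σ (bv 0) ((α * n) • bv 2) (α * σ (α * ζ)) * E σ (bv 0) (α • bv 1) 0 := by
  have o : ∀ (i : ℕ) (c : A), i = 1 ∨ i = 3 → Ok σ (bv 0 : Fin 5 → A) (c • bv i) 0 := fun i c a => ok_iso s (hb 0 0)
    (by rw [hf_smul_l, hf_smul_r, hb i i, if_neg (by omega), mul_zero, mul_zero])
    (by rw [hf_smul_l, hb i 0, if_neg (by omega), mul_zero])
  have o2 : Ok σ (bv 0 : Fin 5 → A) ((α * n) • bv 2) (α * σ (α * ζ)) := ok s 0 (by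
    simp only [map_mul, s _]; linear_combination α * σ α * e)
  have o3 := o 3 (α * ζ) (by omega)
  rw [E_cj1 (E_sem ..), E_fix (hb 0 3) (by rw [hf_smul_r, hb 0 2]; simp), (E_sem ..).smul1, ap0 s e, E_mul o3 o2,
    E_mul (o3.mul o2) (o 1 α (by omega))]
  congr 1
  · module
  · simp only [hf_add_r, hf_smul_l, hf_smul_r, hb 2 3, hb 1 3, hb 1 2]
    simp [mul_comm, CharTwo.add_self_eq_zero]
end C4

end CF.S4q
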