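import Cfsg.Agent.S4q.A
import Cfsg.Agent.Dq.Z1
import Cfsg.Agent.S0302
import Cfsg.Agent.S0303

/-! A standard subgroup `Sp₄(q)`, `q` even: orthogonal overgroups. -/

set_option autoImplicit false
set_option linter.unusedSectionVars false

namespace CF.S4q

open Cfsg Subgroup Equiv CF.Loc CF.LX CF.Ud CF.Sq CF.Geom
open CF.Dq hiding Al
open CF.Dq.X1 (Co)

variable {K : Type} [Field K] [Fintype K] [CharP K 2] {δ : K} {u w : Fin 4 → K} {G : Type*} [Group G] [Finite G] {ρ : P K →* G}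
  {t x : G} {μ : (Fin 4 → K) → K} {F : Subgroup G}

namespace D1

theorem dep (i : hf 1 u (bv 0) = 0) (j : hf 1 w (bv 0) = 0) (e : hf 1 u w = 0) (n : ¬ ∃ a : K, u = a • bv 0) :
    ∃ a b : K, w = a • bv 0 + b • u := by
  simp only [hf, Fin.sum_univ_four, bv, S1.one_ap] at i j e
  have i : u 3 = 0 := by simpa using i
  have j : w 3 = 0 := by simpa using j
  have e : u 1 * w 2 + u 2 * w 1 = 0 := by simpa [i, j] using e
  obtain ⟨b, h₁, h₂⟩ : ∃ b, w 1 = b * u 1 ∧ w 2 = b * u 2 := by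
    by_cases u1 : u 1 = 0
    · have u2 : u 2 ≠ 0 := fun u2 => n ⟨u 0, funext fun r => by fin_cases r <;> simp [bv, *]⟩
      exact ⟨w 2 / u 2, by grind, by grind⟩
    · exact ⟨w 1 / u 1, by grind, by grind⟩
  exact ⟨w 0 + b * u 0, b, funext fun r => by fin_cases r <;> simp [bv, *, add_assoc, CharTwo.add_self_eq_zero]⟩

variable (h : Co ρ x (bv 0)) (f : ∀ w, hf 1 w (bv 0) = 0 → X1.Dd ρ x (bv 0) (E 1 w 0 1) ((μ w + δ) • w) (μ w * μ w))
include h f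

theorem mo (i : hf 1 u (bv 0) = 0) (j : hf 1 w (bv 0) = 0) (e : hf 1 u w = 0) : μ (u + w) = μ u + μ w := by
  by_cases u0 : ∃ a : K, u = a • bv 0
  · obtain ⟨a, rfl⟩ := u0
    rw [add_comm, h.ms f j, h.mz f, zero_add]
  obtain ⟨a, b, rfl⟩ := dep i j e u0
  rw [add_comm (a • _), h.ms f (by simp [i]), ← add_assoc, h.ms f (by simp [i]), h.mh f i,
    show u + b • u = (1 + b) • u by rw [add_smul, one_smul], h.mh f i, add_mul, one_mul]

theorem lin : ∃ n, hf 1 n (bv 0) = 0 ∧ ∀ w c, hf 1 w (bv 0) = 0 → c * c = 1 + Q0 K 4 w → hf 1 w n = μ w + δ * c + δ := by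
  have t := h.toSm
  obtain ⟨n, e⟩ := t.lf h.z0 (r := fun w => μ w + δ * rt (Q0 K 4 w)) (fun u w i j => by
    obtain ⟨c, e⟩ := S1.rt (hf 1 u w)
    rw [t.q0_add, rt, map_add, map_add, ← e, ← rt, ← rt, ← rt, rt_mul]
    by_cases c0 : c = 0
    · rw [mo h f i j (by simp [← e, c0]), c0]
      ring
    · rw [h.mn f j i c0 e]
      grind) fun c w i => by
    rw [h.mh f i, QuadraticMap.map_smul, smul_eq_mul, rt, map_mul, ← rt, ← rt, rt_mul]
    ring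
  refine ⟨n, hf_sw ?_, fun w c i j => ?_⟩
  · have := h.mz f 1
    rw [one_smul] at this
    rw [e _ (t.iso _), this, t.q0_Vf t.b0V]
    simp [rt]
  · rw [e w i, show Q0 K 4 w = (c + 1) * (c + 1) by grind, rt_mul]
    grind

omit h f
theorem xe (r : Sm K 4) (k : Ker ρ) (e : Xz ρ t x) (l : t ∈ 𝐂(ρ.range)) : ∃ x δ, Xe ρ t x δ := by
  have h := X1.co r k e
  obtain ⟨δ, μ, f⟩ := h.mu
  obtain ⟨n, n0, g⟩ := lin h f
  have cq : ∀ n ζ, up ρ (E 1 (bv 0) n ζ) * x = x * up ρ (E 1 (bv 0) n ζ) := fun n ζ => e.cq _ (up_im (E_Q _ n ζ) (r.E_SU _ n ζ))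
  obtain ⟨y, hy⟩ : ∃ y, y = up ρ (E 1 (bv 0) n 0) * x := ⟨_, rfl⟩
  have cQ : ∀ n' ζ, hf 1 n' (bv 0) = 0 → y * up ρ (E 1 (bv 0) n' ζ) * y⁻¹ = up ρ (E 1 (bv 0) n' ζ) := fun n' ζ i => by
    rw [conj_eq_iff, hy, mul_assoc, ← cq, ← mul_assoc, ← mul_assoc, S1.um r (E_sem ..) (E_sem ..), S1.um r (E_sem ..) (E_sem ..),
      E_mul (r.ok i _) (r.ok n0 _), E_mul (r.ok n0 _) (r.ok i _), add_comm n, add_comm ζ, hf_comm n]
  have tw : y * t * y⁻¹ = t * tv ρ (bv 0) 1 := by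
    rw [hy, ← S1.conj_mul_conj', e.tz, conj_eq_iff, ← mul_assoc, S1.cL l, mul_assoc, mul_assoc, S1.um r (E_sem ..) (E_sem ..),
      S1.um r (E_sem ..) (E_sem ..), E_mul (r.okt ..) (r.ok n0 _), E_mul (r.ok n0 _) (r.okt ..)]
    simp
  have ac : ∀ w c, hf 1 w (bv 0) = 0 → c * c = 1 + Q0 K 4 w → y * tv ρ w 1 * y⁻¹ = tv ρ (w + (δ * c) • bv 0) 1 * tv ρ (bv 0) (δ * δ) ∧
      tv ρ (w + (δ * c) • bv 0) 1 * tv ρ (bv 0) (δ * δ) = tv ρ w 1 * up ρ (E 1 (bv 0) ((δ * c) • w) (δ * δ * (c * c + 1))) := fun w c i j => by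
    have o : ∀ a : K, hf 1 (a • w) (bv 0) = 0 := fun a => by simp [i]
    rw [hy, ← S1.conj_mul_conj', (f w i).2, mul_inv_eq_iff_eq_mul]
    simp (disch := repeat' first | exact E_sem .. | apply Sem.mul1) only [S1.um r]
    constructor <;> refine congrArg (up _) (Equiv.ext fun y => ?_) <;>
      simp only [Perm.mul_apply, r.tv_ap, S1.Eap r _ _ n0, S1.Eap r _ _ (o _), hf_add_l, hf_add_r, hf_smul_l, hf_smr, r.iso, i, n0,
        hf_sw i, hf_sw n0, hf_comm n w, g w c i j] <;> ext i <;> simp only [Pi.add_apply, Pi.smul_apply, smul_eq_mul] <;> grind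
  obtain ⟨j, o, two⟩ := Dq.odd_e2 y
  refine ⟨y ^ j, δ, two, odd_cj tw ?_ o, fun w c i d => odd_cj (ac w c i d).1 ?_ o⟩
  · rw [conj_mul_conj, tw, cQ _ _ (hf_zero_l _), mul_assoc, S1.um r (E_sem ..) (E_sem ..), r.E_sq, up_one, mul_one]
  · rw [(ac w c i d).2, conj_mul_conj, (ac w c i d).1, (ac w c i d).2, cQ _ _ (by simp [i]), mul_assoc, S1.um r (E_sem ..) (E_sem ..),
      r.E_sq, up_one, mul_one]

end D1

theorem typeD4 {x : G} (d : Dq.Sm K 4) (f : Fr ρ t) (r : R2 ρ t) (n : Ng ρ t) (o : Top ρ F) (e : Xz ρ t x)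
    (na : ¬ IsConj t (t * ev ρ (bv 0) (bv 1) 0)) : IsLieTypeChar 2 F := by
  have k : TB ρ t := ⟨d, f, r, n⟩
  obtain ⟨y, δ, h⟩ := D1.xe d f.ker e f.cm
  obtain ⟨J, κ, p⟩ := TD.j1 ⟨k, na, y, δ, Z1.xd k h na⟩
  obtain ⟨ι, Φ, q⟩ := p.ph
  have := o.nor
  have l := (q.od fun _ => p.a1 (.inr (d.ex rfl))).fin o.sim o.cen (q.le o.le)
  have φ : F ≃* _root_.commutator (OG (Qh 4 κ)) := (MulEquiv.subgroupCongr l.symm).trans (equivMapOfInjective _ Φ q.inj).symm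
  rcases (d.os κ).iso (k := 2) (by simp) with ⟨⟨ψ⟩⟩ | ⟨a, b, c, ⟨ψ⟩⟩
  · obtain ⟨χ⟩ := Agent.S0302.result (F := K)
    exact .inl ⟨K, inferInstance, inferInstance, inferInstance, 4, by omega, by omega, ⟨(φ.trans ψ).trans χ⟩⟩
  · obtain ⟨j, j1, hj⟩ := CF.Classical.exists_card_eq_pow K 2
    have := Fintype.ofFinite (GaloisField 2 (j * 2))
    have hK : Fintype.card (GaloisField 2 (j * 2)) = Fintype.card K ^ 2 := by
      rw [← Nat.card_eq_fintype_card, GaloisField.card 2 _ (by omega), pow_mul, ← hj, Nat.card_eq_fintype_card]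
    obtain ⟨χ⟩ := Agent.S0303.result rfl hK a b c
    exact .inr (.inr (.inl ⟨_, inferInstance, this, inferInstance, 4, _, hK, by omega, by omega, ⟨(φ.trans ψ).trans χ⟩⟩))

end CF.S4q
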