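import Cfsg.Agent.S4q.M3

/-! A standard subgroup `Sp₄(q)`, `q` even: the stabiliser of a vector. -/

set_option autoImplicit false
set_option linter.unusedSectionVars false

namespace CF.S4q.M4y

open Cfsg Subgroup Equiv CF.Loc CF.LX CF.Ud CF.Sq
open scoped commutatorElement

variable {K : Type} [Field K] [Fintype K] [CharP K 2] {i j : Fin 8} {a b c e : K} {l m : Kˣ} {θ : K ≃+* K}
  {g u : P K} {B D : Subgroup (P K)} {β γ : MulAut (P K)}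

open M2 M3

theorem X_Y (h : ∀ a b : K, xr 2 a * xr i b = xr i b * xr 2 a) : Xs K i ≤ Ys K := Xle fun b => mem_centralizer_iff'.2 fun _ k => by
  obtain ⟨a, rfl⟩ := mem_X.1 k; exact h a b
theorem U_Y : Us K ≤ Ys K := le_centralizer_iff.1 (le_sup_left.trans rt_xr.cen)
theorem X0_Y : Xs K 0 ≤ Ys K := X_Y fun a b => (rt_xr.c2 0 b a).symm
theorem fix0 (h : g * xr 2 1 = xr 2 1 * g) : g.1 (bv 0) = ![1, 0, 0, 0] := (fixb 0 (congrArg Subtype.val h)).trans bv4.1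
theorem gen0 (h : g.1 (bv 0) = ![1, 0, 0, 0]) : g ∈ A1 K ⊔ Xs K 4 ⊔ Xs K 0 := by
  have x4 : ∀ c, xr 4 c ∈ A1 K ⊔ Xs K 4 ⊔ Xs K 0 := fun c => mem_sup_left (mem_sup_right (X_mem 4 c))
  have x0 : ∀ c, xr 0 c ∈ A1 K ⊔ Xs K 4 ⊔ Xs K 0 := fun c => mem_sup_right (X_mem 0 c)
  have n4 : nr K 4 ∈ A1 K ⊔ Xs K 4 ⊔ Xs K 0 := mul_mem (mul_mem (x4 _) (x0 _)) (x4 _)
  have k : ∀ (g : P K) a m, g.1 (bv 0) = ![1, 0, 0, 0] → g.1 (bv 1) = ![a, m, 0, 0] → g ∈ A1 K ⊔ Xs K 4 ⊔ Xs K 0 := fun g a m p q => by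
    have m0 : m ≠ 0 := fun z => by
      have s := form g (bv 2) (bv 1); have t := form g (bv 2) (bv 0)
      rw [q, z] at s; rw [p] at t
      simp [hf4, bv] at s t; grind
    obtain ⟨u, i, rfl⟩ := trg (l := 1) (m := Units.mk0 m m0) p q
    obtain ⟨a, b, c, e, rfl⟩ := mem_U.1 i
    exact mul_mem (mul_mem (mem_sup_left (mem_sup_left (A1_nf a b c))) (x4 e))
      ((show _ = hr 1 _ from sl2 4 (Units.mk0 m m0)) ▸ mul_mem (mul_mem (mul_mem (x4 _) (x0 _)) (x4 _)) n4)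
  obtain ⟨a, m, n, z, e⟩ := ex4 (g.1 (bv 1))
  obtain rfl : z = 0 := by
    have := form g (bv 1) (bv 0)
    rw [e, h] at this; simpa [hf4, bv] using this
  by_cases n0 : n = 0
  · exact k g a m h (n0 ▸ e)
  refine (mul_mem_cancel_left (mul_mem (x0 (m / n)) n4)).1 (k _ a n ?_ ?_)
  · simp [P_mul, h, nr_ap, x0_ap]
  · simp only [P_mul, e, nr_ap, x0_ap, Matrix.cons_val, v4, true_and, and_true]; field_simp; grind
theorem Y_gen : Ys K = A1 K ⊔ Xs K 4 ⊔ Xs K 0 :=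
  le_antisymm (fun _ h => gen0 (fix0 (mem_centralizer_iff'.1 h _ (X_mem 2 1)).symm))
    (sup_le (sup_le (A1_le.trans U_Y) ((Xle x4_U).trans U_Y)) X0_Y)
theorem U_nA : Us K ≤ 𝐍(A1 K) := le_normalizer_of_commutator_le A1_le (rt_xr.der.trans Z_le1)
theorem Y_nA : Ys K ≤ 𝐍(A1 K) := Y_gen (K := K) ▸ sup_le (sup_le le_normalizer ((Xle x4_U).trans U_nA))
  (Xle fun t => mem_normalizer_of_conj_mem fun _ k => by obtain ⟨a, b, c, rfl⟩ := mem_A1.1 k; exact cj0 t a b c ▸ A1_nf _ _ _)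
theorem h_K2 (m : Kˣ) : hr 1 m ∈ Ks K 2 := mem_K.2 (mul_one 1)
theorem CA.map (h : CA B D) (γ : MulAut (P K)) : CA (B.map γ.toMonoidHom) (D.map γ.toMonoidHom) := fun β k => by
  obtain ⟨x, i, e⟩ := h (γ⁻¹ * β * γ) fun y j => show γ⁻¹ (β (γ y)) = y by
    rw [show β (γ y) = γ y from k ⟨y, j, rfl⟩]; simp
  exact ⟨γ x, ⟨x, i, rfl⟩, mul_right_cancel (b := γ) (by rw [← cj_nrm, ← e]; simp [mul_assoc])⟩
theorem mK (eH : (Hs K).map γ.toMonoidHom = Hs K) (eX : (Xs K i).map γ.toMonoidHom = Xs K j) :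
    (Ks K i ⊔ Xs K i).map γ.toMonoidHom = Ks K j ⊔ Xs K j := by
  rw [Subgroup.map_sup, eX, Ks, Subgroup.map_inf _ _ _ γ.injective, eH, Ks, ← eX]
  congr 2
  ext x
  obtain ⟨x, rfl⟩ := γ.surjective x
  refine (mem_map_iff_mem (f := γ.toMonoidHom) γ.injective).trans ?_
  simp only [mem_centralizer_iff', mem_map, forall_exists_index, and_imp, forall_apply_eq_imp_iff₂, MulEquiv.coe_toMonoidHom,
    ← map_mul, γ.injective.eq_iff]

variable (d : Dq.Sm K 4)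
include d
theorem ex_m : ∃ m : Kˣ, m.1 ≠ 1 ∧ m.1 * m.1 ≠ 1 :=
  let ⟨m, n⟩ := ex3 d; ⟨m, fun e => n (Units.ext e), fun e => n (Units.ext (sq_inj (e.trans (mul_one 1).symm)))⟩
theorem cK4 (i : g ∈ A1 K) (h : g ∈ 𝐂(Ks K 4)) : g = 1 := by
  obtain ⟨a, b, c, rfl⟩ := mem_A1.1 i
  obtain ⟨l, p, q⟩ := ex_m d
  rw [a1_nf] at h ⊢
  obtain ⟨x, y, z, -⟩ := U_inj ((hr_nf l 1 a b c 0).symm.trans (mul_inv_eq_iff_eq_mul.2
    (mem_centralizer_iff'.1 h _ (mem_K.2 (mul_one 1)))))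
  simp [al] at x y z
  rw [show a = 0 by grind, show b = 0 by grind, show c = 0 by grind, ← one_nf]
theorem Y_perf : Ys K ≤ ⁅Ys K, Ys K⁆ := by
  obtain ⟨m, p, q⟩ := ex_m d
  have k : ∀ i, Xs K i ≤ Ys K → (al i 1 m).1 ≠ 1 → ∀ c, xr i c ∈ ⁅Ys K, Ys K⁆ := fun i l p c => by
    have n : 1 + (al i 1 m).1 ≠ 0 := by grind
    have := commutator_mem_commutator (l (X_mem i (c / (1 + (al i 1 m).1)))) (h_K2 m).2
    rwa [commutatorElement_def, rt_xr.inv, mul_assoc, mul_assoc, ← mul_assoc (hr 1 m), hr_cj, ← rt_xr.add,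
      show c / (1 + (al i 1 m).1) + (al i 1 m).1 * (c / (1 + (al i 1 m).1)) = c by field_simp] at this
  have := m.mul_inv
  have k1 := k 1 ((Xle x1_U).trans U_Y) (by simp only [al, Matrix.cons_val, Units.val_mul, Units.val_one]; grind)
  have k3 := k 3 ((Xle x3_U).trans U_Y) (by simp only [al, Matrix.cons_val, Units.val_mul, Units.val_one]; grind)
  have k4 := k 4 ((Xle x4_U).trans U_Y) (by simp only [al, Matrix.cons_val, Units.val_mul, Units.val_one]; grind)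
  have k0 := k 0 X0_Y (by simp only [al, Matrix.cons_val, Units.val_mul, Units.val_one]; grind)
  refine Y_gen.le.trans (sup_le (sup_le (sup_le (sup_le (Xle k1) (Xle fun b => ?_)) (Xle k3)) (Xle k4)) (Xle k0))
  have := commutator_mem_commutator (U_Y (x1_U 1)) (U_Y (x4_U b))
  rw [cm14, mul_mem_cancel_right (k3 _)] at this
  simpa using this
theorem cKX2 : CA (Ks K 2 ⊔ Xs K 2) (Ks K 2 ⊔ Xs K 2) := fun β h => by
  have hx : ∀ c, β (xr 2 c) = xr 2 c := fun c => h (mem_sup_right (X_mem 2 c))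
  have hh : ∀ m, β (hr 1 m) = hr 1 m := fun m => h (mem_sup_left (h_K2 m))
  obtain ⟨g, β₀, ⟨θ, p | p⟩, rfl⟩ := aut d β
  swap
  · have := hx 1
    rw [MulAut.mul_apply, p, MulAut.conj_apply] at this
    exact absurd (isConj_iff.2 ⟨_, this⟩).symm (n23 one_ne_zero)
  simp only [MulAut.mul_apply, p _, MulAut.conj_apply, mul_inv_eq_iff_eq_mul] at hx
  have h0 := fix0 (map_one θ ▸ hx 1)
  have y := Y_gen.ge (gen0 h0)
  obtain rfl : β₀ = 1 := St.one fun i c => (p i c).trans (congrArg _ (xr_inj (mul_right_cancel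
    ((mem_centralizer_iff'.1 y _ (X_mem 2 (θ c))).trans (hx c)))))
  obtain ⟨m, s, t⟩ := ex_m d
  have k : g * hr 1 m = hr 1 m * g := mul_inv_eq_iff_eq_mul.1 (hh m)
  obtain ⟨a, n, z, z', e⟩ := ex4 (g.1 (bv 1))
  have := cmap k (bv 1)
  rw [show (hr 1 m).1 (bv 1) = m.1 • bv 1 by simp [bv4.2.1, hr_ap], (sem g).smul1, e, hr_ap] at this
  have o := m.mul_inv
  simp only [Matrix.smul_cons, Matrix.smul_empty, smul_eq_mul, v4, Units.val_one, inv_one] at this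
  obtain rfl : a = 0 := by grind
  obtain rfl : z = 0 := by grind
  obtain rfl : z' = 0 := by grind
  have n0 : n ≠ 0 := fun o => nz g 1 (e.trans (by simp [o]))
  obtain ⟨u, i, rfl⟩ := trg (l := 1) (m := Units.mk0 n n0) h0 e
  obtain ⟨a, b, c, e', rfl⟩ := mem_U.1 i
  rw [mul_assoc, mem_centralizer_iff'.1 (H_ab (hr_H 1 m)) _ (hr_H _ _), ← mul_assoc, ← mul_assoc (hr 1 m), mul_left_inj] at k
  obtain ⟨x, -, y, z⟩ := U_inj ((hr_nf 1 m a b c e').symm.trans (mul_inv_eq_iff_eq_mul.2 k.symm))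
  simp only [al, Matrix.cons_val, Units.val_mul, Units.val_one] at x y z
  refine ⟨_, ?_, mul_one _⟩
  rw [show a = 0 by grind, show c = 0 by grind, show e' = 0 by grind]
  simpa [rt_xr.zero] using mul_mem (mem_sup_right (X_mem 2 b)) (mem_sup_left (h_K2 (Units.mk0 n n0)))
theorem cKX (i : Fin 8) : CA (Ks K i ⊔ Xs K i) (Ks K i ⊔ Xs K i) := by
  have k : ∀ j : Fin 8, CA (Ks K (2 * j + 4 - 2) ⊔ Xs K (2 * j + 4 - 2)) (Ks K (2 * j + 4 - 2) ⊔ Xs K (2 * j + 4 - 2)) := fun j =>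
    mK (γ := MulAut.conj (nr K j)) (cj_eq_self (n_H j)) (le_antisymm (map_le_iff_le_comap.2 (Xle fun c =>
      show _ * _ * _ ∈ _ from nr_cj j 2 c ▸ X_mem _ c)) (Xle fun c => ⟨_, X_mem 2 c, nr_cj j 2 c⟩)) ▸ CA.map (cKX2 d) _
  obtain ⟨γ, e⟩ := ex_Sg (1 : K ≃+* K)
  have k' := fun j => mK (Sa.mH ⟨_, .inr e⟩) (e.mX _) ▸ CA.map (k j) γ
  rcases fin8 i with rfl | rfl | rfl | rfl | rfl | rfl | rfl | rfl
  exacts [k 3, k' 1, k 0, k' 0, k 1, k' 3, k 2, k' 2]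

end CF.S4q.M4y
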