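import Cfsg.Agent.S4q.M1

/-! A standard subgroup `Sp₄(q)`, `q` even: relations in the five-dimensional model. -/

set_option autoImplicit false
set_option linter.unusedSectionVars false
set_option linter.unusedSimpArgs false
set_option linter.unnecessarySeqFocus false

namespace CF.S4q

open Subgroup Equiv CF.Loc CF.LX CF.Ud CF.Sq
open scoped commutatorElement

section ring
variable {A : Type} [CommRing A] {σ : A ≃+* A}

theorem hf5 (x y : Fin 5 → A) : hf σ x y = x 0 * σ (y 4) + x 1 * σ (y 3) + x 2 * σ (y 2) + x 3 * σ (y 1) + x 4 * σ (y 0) := by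
  simp only [hf, Fin.sum_univ_five]; rfl
omit [CommRing A] in
theorem v5 {p q r s t p' q' r' s' t' : A} :
    ![p, q, r, s, t] = ![p', q', r', s', t'] ↔ p = p' ∧ q = q' ∧ r = r' ∧ s = s' ∧ t = t' := by simp
omit [CommRing A] in
theorem ex5 (x : Fin 5 → A) : ∃ p q r s t, x = ![p, q, r, s, t] := ⟨x 0, x 1, x 2, x 3, x 4, by ext i; fin_cases i <;> rfl⟩
omit [CommRing A] in
theorem ext5 {g u : Perm (Fin 5 → A)} (h : ∀ p q r s t, g ![p, q, r, s, t] = u ![p, q, r, s, t]) : g = u := Equiv.ext fun x => by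
  obtain ⟨_, _, _, _, _, rfl⟩ := ex5 x; exact h ..
theorem bv5 : (bv 0 : Fin 5 → A) = ![1, 0, 0, 0, 0] ∧ (bv 1 : Fin 5 → A) = ![0, 1, 0, 0, 0] ∧ (bv 2 : Fin 5 → A) = ![0, 0, 1, 0, 0] ∧
    (bv 3 : Fin 5 → A) = ![0, 0, 0, 1, 0] ∧ (bv 4 : Fin 5 → A) = ![0, 0, 0, 0, 1] := by
  refine ⟨?_, ?_, ?_, ?_, ?_⟩ <;> ext i <;> fin_cases i <;> simp [bv]

/-- splitting off the middle coordinate -/
def e5 (A : Type) : A × (Fin 4 → A) ≃ (Fin 5 → A) :=
  ⟨fun p => ![p.2 0, p.2 1, p.1, p.2 2, p.2 3], fun x => (x 2, ![x 0, x 1, x 3, x 4]),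
    fun p => Prod.ext rfl (by ext i; fin_cases i <;> rfl), fun x => by ext i; fin_cases i <;> rfl⟩

/-- extension fixing the middle coordinate -/
def x5 (A : Type) : Perm (Fin 4 → A) →* Perm (Fin 5 → A) where
  toFun g := (e5 A).permCongr (Equiv.prodCongr (Equiv.refl A) g)
  map_one' := by ext; simp
  map_mul' g h := by ext; simp [Prod.map]
theorem cw5 (p q r s t : A) : cw σ ![p, q, r, s, t] = ![σ p, σ q, σ r, σ s, σ t] := by ext i; fin_cases i <;> rfl
end ring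

variable {K : Type} [Field K] [Fintype K] [CharP K 2] {i j : Fin 8} {a b c e k : K} {n ζ n' ζ' : KK k}

/-- the constants -/
abbrev io (k : K) : K →+* KK k := algebraMap K (KK k)

/-- admissible parameters -/
def Mk (k : K) (i : Fin 8) (n ζ : KK k) : Prop := if Odd i.val then ζ = 0 else ζ + sk k ζ = n * sk k n

section
omit [Fintype K]
theorem sk_iv (k : K) : Iv (sk k) := fun ⟨a, b⟩ => by simp [sg_ap, add_assoc, CharTwo.add_self_eq_zero]
theorem sk_sk (a : KK k) : sk k (sk k a) = a := sk_iv k a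
omit [CharP K 2] in
theorem kk_re (c : K) : (⟨c, 0⟩ : KK k) = io k c := rfl
omit [CharP K 2] in
theorem kk_im (c : K) : (⟨0, c⟩ : KK k) = io k c * om k := by ext <;> simp [om]
omit [CharP K 2] in
theorem kk_ab (a b : K) : (⟨a, b⟩ : KK k) = io k a + io k b * om k := by ext <;> simp [om]
omit [CharP K 2] in
theorem kk_inj (h : io k a + io k b * om k = 0) : a = 0 ∧ b = 0 := by
  rw [← kk_ab] at h; exact ⟨congrArg (·.re) h, congrArg (·.im) h⟩
theorem sk_io (c : K) : sk k (io k c) = io k c := by rw [← kk_re, sg_ap]; simp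
theorem sk_om : sk k (om k) = om k + 1 := by ext <;> simp [om, sg_ap] <;> rfl
omit [CharP K 2] in
theorem om_sq (k : K) : om k * om k = om k + io k k := by ext <;> simp [om]
theorem Mk.ok (h : Mk k i n ζ) :
    Ok (sk k) (bv (![3, 0, 0, 0, 1, 1, 4, 3] i) : Fin 5 → KK k) (n • bv (![2, 3, 2, 1, 2, 4, 2, 4] i)) ζ := by
  rcases fin8 i with rfl | rfl | rfl | rfl | rfl | rfl | rfl | rfl <;>
  · simp +decide only [Mk, if_true, if_false] at h
    exact ⟨sk_iv k, by simp [hf5, bv5], by simp [hf5, bv5], by simp [hf5, bv5, h, mul_comm]⟩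
theorem mg_ap (h : Mk k i n ζ) (p q r s t : KK k) : mg k i n ζ ![p, q, r, s, t] =
    ![![p, q, r + n * q, s + sk k n * r + ζ * q, t], ![p + sk k n * q, q, r, s + n * t, t], ![p + sk k n * r + ζ * t, q, r + n * t, s, t],
      ![p + sk k n * s, q + n * t, r, s, t], ![p, q + sk k n * r + ζ * s, r + n * s, s, t], ![p, q + sk k n * p, r, s, t + n * s],
      ![p, q, r + n * p, s, t + sk k n * r + ζ * p], ![p, q, r, s + sk k n * p, t + n * q]] i := by
  refine (E_ap h.ok _).trans ?_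
  rcases fin8 i with rfl | rfl | rfl | rfl | rfl | rfl | rfl | rfl <;>
  · simp +decide only [Mk, if_true, if_false] at h
    simp [hf5, bv5, mul_comm, add_assoc, h]
theorem mx_ap (i : Fin 8) (c : K) (p q r s t : KK k) : mx k i c ![p, q, r, s, t] =
    ![![p, q, r, s + io k c * q, t], ![p + io k c * q, q, r, s + io k c * t, t], ![p + io k c * t, q, r, s, t],
      ![p + io k c * s, q + io k c * t, r, s, t], ![p, q + io k c * s, r, s, t], ![p, q + io k c * p, r, s, t + io k c * s],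
      ![p, q, r, s, t + io k c * p], ![p, q, r, s + io k c * p, t + io k c * q]] i := by
  rcases fin8 i with rfl | rfl | rfl | rfl | rfl | rfl | rfl | rfl <;>
  · simp +decide only [mx, if_true, if_false]
    rw [mg_ap (by simp +decide [Mk, kk_re, sk_io, CharTwo.add_self_eq_zero])]
    simp [kk_re, sk_io]
theorem mz_ap (i : Fin 8) (d : K) (p q r s t : KK k) : mz k i d ![p, q, r, s, t] =
    ![![p, q, r + io k d * om k * q, s + io k d * (om k + 1) * r + io k k * io k d * io k d * om k * q, t], ![p, q, r, s, t],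
      ![p + io k d * (om k + 1) * r + io k k * io k d * io k d * om k * t, q, r + io k d * om k * t, s, t], ![p, q, r, s, t],
      ![p, q + io k d * (om k + 1) * r + io k k * io k d * io k d * om k * s, r + io k d * om k * s, s, t], ![p, q, r, s, t],
      ![p, q, r + io k d * om k * p, s, t + io k d * (om k + 1) * r + io k k * io k d * io k d * om k * p], ![p, q, r, s, t]] i := by
  have := om_sq k
  rcases fin8 i with rfl | rfl | rfl | rfl | rfl | rfl | rfl | rfl <;> simp +decide only [mz, if_true, if_false] <;>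
  first
  | rfl
  | rw [mg_ap (by simp +decide only [Mk, if_false, kk_im, map_mul, sk_io, sk_om]; grind)]
    simp only [kk_im, map_mul, sk_io, sk_om, Matrix.cons_val]
end

theorem rt_hom (a b : K) : rt (a * b) = rt a * rt b := map_mul (frobeniusEquiv K 2).symm a b
theorem io_rt (k c : K) : io k (rt c) * io k (rt c) = io k c := by rw [← map_mul, rt_sq]
theorem my_ap (i : Fin 8) (c : K) (p q r s t : KK k) : my k i c ![p, q, r, s, t] =
    ![![p, q, r + io k (rt c) * q, s + io k (rt c) * r + io k c * om k * q, t],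
      ![p + io k c * (om k + 1) * q, q, r, s + io k c * om k * t, t],
      ![p + io k (rt c) * r + io k c * om k * t, q, r + io k (rt c) * t, s, t],
      ![p + io k c * (om k + 1) * s, q + io k c * om k * t, r, s, t],
      ![p, q + io k (rt c) * r + io k c * om k * s, r + io k (rt c) * s, s, t],
      ![p, q + io k c * (om k + 1) * p, r, s, t + io k c * om k * s],
      ![p, q, r + io k (rt c) * p, s, t + io k (rt c) * r + io k c * om k * p],
      ![p, q, r, s + io k c * (om k + 1) * p, t + io k c * om k * q]] i := by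
  have := io_rt k c
  rcases fin8 i with rfl | rfl | rfl | rfl | rfl | rfl | rfl | rfl <;>
  · simp +decide only [my, if_true, if_false]
    rw [mg_ap (by simp +decide only [Mk, if_true, if_false, kk_re, kk_im, map_mul, sk_io, sk_om] <;> grind)]
    simp only [kk_re, kk_im, map_mul, sk_io, sk_om, Matrix.cons_val]

section
omit [Fintype K]
theorem mg_U (h : Mk k i n ζ) : mg k i n ζ ∈ Um k i := subset_closure ⟨n, ζ, fun o => by simpa [Mk, o] using h, rfl⟩
theorem mk_zero : Mk k i 0 0 := by simp [Mk]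
theorem mg_zero : mg k i 0 0 = 1 := by simp [mg]
theorem mem_Um {g : Perm (Fin 5 → KK k)} : g ∈ Um k i ↔ ∃ n ζ, Mk k i n ζ ∧ g = mg k i n ζ := by
  refine ⟨fun h => ?_, fun ⟨_, _, h, e⟩ => e ▸ mg_U h⟩
  induction h using closure_induction with
  | mem _ e =>
    obtain ⟨n, ζ, o, rfl⟩ := e
    by_cases h : Mk k i n ζ
    · exact ⟨_, _, h, rfl⟩
    refine ⟨0, 0, mk_zero, (E_junk fun e => h ?_).trans mg_zero.symm⟩
    have := e.tr
    rcases fin8 i with rfl | rfl | rfl | rfl | rfl | rfl | rfl | rfl <;> simp +decide only [Mk, if_true, if_false] <;>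
    first
    | exact o (by decide)
    | simpa [hf5, bv5, mul_comm] using this
  | one => exact ⟨0, 0, mk_zero, mg_zero.symm⟩
  | mul _ _ _ _ p q =>
    obtain ⟨n, ζ, p, rfl⟩ := p
    obtain ⟨n', ζ', q, rfl⟩ := q
    have o : Mk k i (n + n') (if Odd i.val then 0 else ζ + ζ' + n' * sk k n) := by
      simp only [Mk] at p q ⊢
      split_ifs at * <;> simp only [map_add, map_mul, sk_sk] <;> grind
    refine ⟨_, _, o, ext5 fun _ _ _ _ _ => ?_⟩
    rw [mg_ap o]
    rcases fin8 i with rfl | rfl | rfl | rfl | rfl | rfl | rfl | rfl <;>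
    · simp +decide only [Perm.mul_apply, mg_ap p, mg_ap q, Matrix.cons_val, v5, map_add, if_false]; grind
  | inv _ _ p =>
    obtain ⟨n, ζ, p, rfl⟩ := p
    refine ⟨n, sk k ζ, ?_, E_inv p.ok⟩
    simp only [Mk] at p ⊢
    split_ifs at * <;> simp [p, sk_sk, add_comm]
theorem mk_odd (o : Odd i.val) (n : KK k) : Mk k i n 0 := by simp [Mk, o]
theorem mk_even (o : Even i.val) : Mk k i n ζ ↔ ζ + sk k ζ = n * sk k n := by simp [Mk, Nat.not_odd_iff_even.2 o]
theorem mx_U (k : K) (i : Fin 8) (c : K) : mx k i c ∈ Um k i := by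
  unfold mx; split_ifs with o <;> exact subset_closure ⟨_, _, by simp [o], rfl⟩
theorem mz_U (k : K) (i : Fin 8) (c : K) : mz k i c ∈ Um k i := by
  unfold mz; split_ifs with o
  exacts [one_mem _, subset_closure ⟨_, _, by simp [o], rfl⟩]
theorem nw_ap (i : Fin 8) (p q r s t : KK k) : nw (mx k) i ![p, q, r, s, t] = ![![p, s, r, q, t], ![q, p, r, t, s], ![t, q, r, s, p],
    ![s, t, r, p, q], ![p, s, r, q, t], ![q, p, r, t, s], ![t, q, r, s, p], ![s, t, r, p, q]] i := by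
  rcases fin8 i with rfl | rfl | rfl | rfl | rfl | rfl | rfl | rfl <;>
  · simp only [Perm.mul_apply, nw, mx_ap, Fin.reduceAdd, Matrix.cons_val, v5, map_one]; grind
end

theorem my_U (k : K) (i : Fin 8) (c : K) : my k i c ∈ Um k i := by
  unfold my; split_ifs with o <;> exact subset_closure ⟨_, _, by simp [o], rfl⟩
theorem mg_odd (k : K) (o : Odd i.val) (n : KK k) : mg k i n 0 = mx k i n.re * my k i n.im := ext5 fun _ _ _ _ _ => by
  rw [mg_ap (mk_odd o n)]
  obtain ⟨a, b⟩ := n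
  rcases fin8 i with rfl | rfl | rfl | rfl | rfl | rfl | rfl | rfl <;>
  first
  | exact absurd o (by decide)
  | simp only [Perm.mul_apply, mx_ap, my_ap, Matrix.cons_val, v5, kk_ab a b, map_add, map_mul, sk_io, sk_om]; grind
theorem mg_even (k : K) (o : Even i.val) {n ζ : KK k} (h : ζ + sk k ζ = n * sk k n) :
    ∃ p, mg k i n ζ = mx k i p * my k i (n.re * n.re) * mz k i n.im := ⟨ζ.re, ext5 fun _ _ _ _ _ => by
  rw [mg_ap ((mk_even o).2 h)]
  obtain ⟨a, b⟩ := n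
  obtain ⟨c, d⟩ := ζ
  have := om_sq k
  simp only [kk_ab a b, kk_ab c d, map_add, map_mul, sk_io, sk_om] at h
  rcases fin8 i with rfl | rfl | rfl | rfl | rfl | rfl | rfl | rfl <;>
  first
  | exact absurd o (by decide)
  | simp only [Perm.mul_apply, mx_ap, my_ap, mz_ap, Matrix.cons_val, v5, kk_ab a b, kk_ab c d, map_add, map_mul, sk_io, sk_om, rt_mul]
    grind⟩
theorem Jg_m (k : K) (i : Fin 8) : Jg (mx k) (my k) (mz k) i = Um k i := by
  refine le_antisymm (sup_le (sup_le ?_ ?_) ?_) fun g h => ?_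
  · exact (closure_le _).2 fun _ ⟨c, e⟩ => e ▸ mx_U k i c
  · exact (closure_le _).2 fun _ ⟨c, e⟩ => e ▸ my_U k i c
  · exact (closure_le _).2 fun _ ⟨c, e⟩ => e ▸ mz_U k i c
  obtain ⟨n, ζ, m, rfl⟩ := mem_Um.1 h
  rcases Nat.even_or_odd i.val with o | o
  · obtain ⟨p, e⟩ := mg_even k o ((mk_even o).1 m)
    exact e ▸ mul_mem_sup (mul_mem_sup (x_Rg _ _ _) (x_Rg _ _ _)) (x_Rg _ _ _)
  · obtain rfl : ζ = 0 := by simpa [Mk, o] using m
    exact mg_odd k o n ▸ mem_sup_left (mul_mem_sup (x_Rg _ _ _) (x_Rg _ _ _))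
theorem m_n4 (k : K) (i : Fin 8) (c : K) : nw (mx k) 4 * mx k i c * (nw (mx k) 4)⁻¹ = mx k (4 - i) c ∧
    nw (mx k) 4 * my k i c * (nw (mx k) 4)⁻¹ = my k (4 - i) c ∧ nw (mx k) 4 * mz k i c * (nw (mx k) 4)⁻¹ = mz k (4 - i) c := by
  refine ⟨?_, ?_, ?_⟩ <;> refine mul_inv_eq_iff_eq_mul.2 (ext5 fun _ _ _ _ _ => ?_) <;>
  rcases fin8 i with rfl | rfl | rfl | rfl | rfl | rfl | rfl | rfl <;>
  simp only [Perm.mul_apply, nw_ap, mx_ap, my_ap, mz_ap, Fin.reduceSub, Matrix.cons_val]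
theorem m_n1 (k : K) (i : Fin 8) (c : K) : nw (mx k) 1 * mx k i c * (nw (mx k) 1)⁻¹ = mx k (6 - i) c ∧
    nw (mx k) 1 * my k i c * (nw (mx k) 1)⁻¹ = my k (6 - i) c * mx k (6 - i) (if i = 3 ∨ i = 7 then c else 0) ∧
    nw (mx k) 1 * mz k i c * (nw (mx k) 1)⁻¹ = mz k (6 - i) c := by
  refine ⟨?_, ?_, ?_⟩ <;> refine mul_inv_eq_iff_eq_mul.2 (ext5 fun _ _ _ _ _ => ?_) <;>
  rcases fin8 i with rfl | rfl | rfl | rfl | rfl | rfl | rfl | rfl <;>
  simp +decide only [Perm.mul_apply, nw_ap, mx_ap, my_ap, mz_ap, Fin.reduceSub, Matrix.cons_val, if_true, if_false, map_zero, v5] <;>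
  grind
theorem m_cw (k : K) (i : Fin 8) (c : K) : cw (sk k) * mx k i c * (cw (sk k))⁻¹ = mx k i c ∧
    cw (sk k) * my k i c * (cw (sk k))⁻¹ = mx k i c * my k i c ∧
    (Even i.val → cw (sk k) * mz k i c * (cw (sk k))⁻¹ = my k i (c * c) * mx k i (k * c * c) * mz k i c) := by
  have := io_rt k c
  have := om_sq k
  refine ⟨?_, ?_, fun o => ?_⟩ <;> refine mul_inv_eq_iff_eq_mul.2 (ext5 fun _ _ _ _ _ => ?_) <;>
  rcases fin8 i with rfl | rfl | rfl | rfl | rfl | rfl | rfl | rfl <;>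
  first
  | exact absurd o (by decide)
  | simp only [Perm.mul_apply, cw5, mx_ap, my_ap, mz_ap, Matrix.cons_val, v5, map_add, map_mul, map_one, sk_io, sk_om, rt_mul] <;> grind
theorem m_hom (k : K) : ∃ ε : P K →* Perm (Fin 5 → KK k), ∀ i c, ε (xr i c) = mx k i c := by
  let ε : P K →* Perm (Fin 4 → KK k) := ⟨⟨fun g => ext k 0 g.1, ext_one⟩, fun g h => by simp [ext_mul (su_sem g.2)]⟩
  have m : ∀ a b c d a' b' c' d' : K, mkv k ![a, b, c, d] ![a', b', c', d'] = ![⟨a, a'⟩, ⟨b, b'⟩, ⟨c, c'⟩, ⟨d, d'⟩] :=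
    fun _ _ _ _ _ _ _ _ => by ext1 i; fin_cases i <;> rfl
  refine ⟨(x5 _).comp ε, fun i c => ext5 fun ⟨p, p'⟩ ⟨q, q'⟩ r ⟨s, s'⟩ ⟨t, t'⟩ => ?_⟩
  change e5 _ (r, ext k 0 (xr i c).1 ![⟨p, p'⟩, ⟨q, q'⟩, ⟨s, s'⟩, ⟨t, t'⟩]) = _
  rw [← m, ext_ap, zero_smul, add_zero]
  rcases fin8 i with rfl | rfl | rfl | rfl | rfl | rfl | rfl | rfl <;>
  · simp only [xr_ap, mx_ap, Matrix.cons_val, m, e5, coe_fn_mk, v5, kk_ab, map_add, map_mul]; grind
theorem m_inj {a₁ a₂ a₃ a₄ b₁ b₂ b₃ b₄ c₂ c₄ : K}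
    (h : mx k 1 a₁ * my k 1 b₁ * (mx k 2 a₂ * my k 2 b₂ * mz k 2 c₂) * (mx k 3 a₃ * my k 3 b₃) * (mx k 4 a₄ * my k 4 b₄ * mz k 4 c₄) = 1) :
    a₁ = 0 ∧ b₁ = 0 ∧ a₂ = 0 ∧ b₂ = 0 ∧ c₂ = 0 ∧ a₃ = 0 ∧ b₃ = 0 ∧ a₄ = 0 ∧ b₄ = 0 ∧ c₄ = 0 := by
  have h4 := congrArg (· ![0, 0, 0, 0, 1]) h
  have h3 := congrArg (· ![0, 0, 0, 1, 0]) h
  simp only [Perm.mul_apply, Perm.one_apply, mx_ap, my_ap, mz_ap, Matrix.cons_val, v5] at h3 h4
  have r : ∀ b : K, rt b = 0 → b = 0 := fun b e => by rw [← rt_sq b, e, mul_zero]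
  obtain ⟨rfl, rfl⟩ := kk_inj (k := k) (a := a₁) (b := b₁) (by grind)
  obtain ⟨rfl, rfl⟩ := kk_inj (k := k) (a := a₃) (b := b₃) (by grind)
  obtain ⟨e₂, rfl⟩ := kk_inj (k := k) (a := rt b₂) (b := c₂) (by grind)
  obtain ⟨e₄, rfl⟩ := kk_inj (k := k) (a := rt b₄) (b := c₄) (by grind)
  obtain rfl := r _ e₂
  obtain rfl := r _ e₄
  simp only [e₂, map_zero] at h3 h4
  exact ⟨rfl, rfl, (kk_inj (k := k) (b := 0) (by rw [map_zero]; grind)).1, rfl, rfl, rfl, rfl,
    (kk_inj (k := k) (b := 0) (by rw [map_zero]; grind)).1, rfl, rfl⟩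
theorem U_adj (k : K) (i : Fin 8) : Um k i ≤ 𝐂(Um k (i + 1)) := fun g h u m => by
  obtain ⟨_, _, p, rfl⟩ := mem_Um.1 h
  obtain ⟨_, _, q, rfl⟩ := mem_Um.1 m
  refine ext5 fun _ _ _ _ _ => ?_
  rcases fin8 i with rfl | rfl | rfl | rfl | rfl | rfl | rfl | rfl <;>
  · simp only [Fin.reduceAdd] at q
    simp only [Perm.mul_apply, mg_ap p, mg_ap q, Fin.reduceAdd, Matrix.cons_val, v5] <;> grind
set_option maxHeartbeats 1000000 in
theorem rc_m (k : K) : Rc k k (mx k) (my k) (mz k) := by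
  have w := om_sq k
  obtain ⟨ε, e⟩ := m_hom k
  have c : ∀ i j : Fin 8, (i = 2 ∧ j = 4) ∨ (i = 4 ∧ j = 2) → Rg (mx k) i ≤ 𝐂(Jg (mx k) (my k) (mz k) j) := fun i j h =>
    (closure_le _).2 fun _ ⟨c, e⟩ u m => by
      obtain ⟨_, _, q, rfl⟩ := mem_Um.1 (Jg_m k j ▸ m)
      refine e ▸ ext5 fun _ _ _ _ _ => ?_
      rcases h with ⟨rfl, rfl⟩ | ⟨rfl, rfl⟩ <;>
      · simp only [Perm.mul_apply, mg_ap q, mx_ap, Matrix.cons_val]
  have s : ∀ a d, k * k * a * a * d * d = k * a * d * (k * a * d) := fun a d => by ring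
  refine ⟨by simpa only [e] using rt_xr.map ε, fun i o d => if_pos o, fun i a b => ?_, fun i a b => ?_, fun i o a b => ?_,
    fun i o a b => ?_, fun i o a b => ?_, fun i o a b => mul_inv_eq_iff_eq_mul.2 ?_, fun i => by simpa only [Jg_m] using U_adj k i,
    fun a b => mul_inv_eq_iff_eq_mul.2 ?_, fun a b => mul_inv_eq_iff_eq_mul.2 ?_, fun a b => ?_, c _ _ (by simp), c _ _ (by simp),
    fun a b => mul_inv_eq_iff_eq_mul.2 ?_, fun a b => (mul_assoc ..).trans (inv_mul_eq_iff_eq_mul.2 ?_),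
    fun a b => (mul_assoc ..).trans (inv_mul_eq_iff_eq_mul.2 ?_), fun a b => (mul_assoc ..).trans (inv_mul_eq_iff_eq_mul.2 ?_),
    fun a b => mul_inv_eq_iff_eq_mul.2 ?_, fun a b => mul_inv_eq_iff_eq_mul.2 ?_, fun a b => mul_inv_eq_iff_eq_mul.2 ?_,
    fun a b => mul_inv_eq_iff_eq_mul.2 ?_, fun a b => mul_inv_eq_iff_eq_mul.2 ?_⟩ <;> refine ext5 fun _ _ _ _ _ => ?_
  iterate 6
    rcases fin8 i with rfl | rfl | rfl | rfl | rfl | rfl | rfl | rfl <;>
    first
    | exact absurd o (by decide)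
    | simp only [Perm.mul_apply, mx_ap, my_ap, mz_ap, Matrix.cons_val, v5, rt_mul, map_add, map_mul] <;> grind
  all_goals
    have := io_rt k b
    simp only [Perm.mul_apply, mx_ap, my_ap, mz_ap, Matrix.cons_val, v5, s, rt_mul, rt_hom (a * a), map_add, map_mul] <;> grind

end CF.S4q
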