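import Cfsg.Agent.S4q.MU1

/-! A standard subgroup `Sp₄(q)`, `q` even: the octagon of the five-dimensional model. -/

set_option autoImplicit false
set_option linter.unusedSectionVars false
set_option linter.unusedSimpArgs false
set_option linter.unnecessarySeqFocus false

namespace CF.S4q

open Subgroup Equiv CF.Loc CF.LX CF.Ud CF.Sq
open scoped commutatorElement

variable {K : Type} [Field K] [Fintype K] [CharP K 2] {i j : Fin 8} {k : K} {n ζ n' ζ' : KK k} {g : Perm (Fin 5 → KK k)}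

/-- permutations commuting with a map -/
def Cmm {X : Type*} (π : X → X) : Subgroup (Perm X) where
  carrier := {g | ∀ x, g (π x) = π (g x)}
  one_mem' _ := rfl
  mul_mem' a b x := by rw [Perm.mul_apply, b, a]; rfl
  inv_mem' {g} a x := g.injective (by rw [a]; simp)

theorem par2 {p : Fin 8 → Prop} (h : ∀ i, p i → p (i + 2)) (a : p 0) (b : p 1) (i : Fin 8) : p i :=
  (em (Even i.val)).elim (fun e => par_ind h a (iff_of_true e (by decide))) fun e => par_ind h b (iff_of_false e (by decide))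
theorem Um_le {H : Subgroup (Perm (Fin 5 → KK k))} (h : ∀ n ζ, Mk k i n ζ → mg k i n ζ ∈ H) : Um k i ≤ H := fun g m => by
  obtain ⟨_, _, p, rfl⟩ := mem_Um.1 m; exact h _ _ p
theorem mk_om (o : Even i.val) (n : KK k) : Mk k i n (n * sk k n * om k) := by
  simp only [mk_even o, map_mul, sk_sk, sk_om]; grind
theorem Mk.z (h : Mk k i n ζ) (o : Odd i.val) : ζ = 0 := by simpa [Mk, o] using h
theorem nw_sq (k : K) (i : Fin 8) : nw (mx k) i * nw (mx k) i = 1 := ext5 fun _ _ _ _ _ => by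
  rcases fin8 i with rfl | rfl | rfl | rfl | rfl | rfl | rfl | rfl <;> simp only [Perm.mul_apply, Perm.one_apply, nw_ap, Matrix.cons_val]
theorem cj_U {H : Subgroup (Perm (Fin 5 → KK k))} (h : ∀ n ζ, Mk k i n ζ → g * mg k i n ζ * g⁻¹ ∈ H) : cj[g] (Um k i) ≤ H :=
  cj_le_iff.2 (Um_le fun n ζ p => mem_cj.2 (by simpa using h n ζ p))
theorem Um_ref {s : Fin 8} (e : g * g = 1) (h : ∀ i, cj[g] (Um k i) ≤ Um k (s - i)) (i : Fin 8) : cj[g] (Um k i) = Um k (s - i) :=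
  le_antisymm (h i) (le_cj_iff.2 (by simpa [inv_eq_of_mul_eq_one_right e] using h (s - i)))
theorem Um_n4 (k : K) : ∀ i, cj[nw (mx k) 4] (Um k i) = Um k (4 - i) := Um_ref (nw_sq k 4) fun i => cj_U fun n ζ p => by
  have q : Mk k (4 - i) n ζ := by
    rcases fin8 i with rfl | rfl | rfl | rfl | rfl | rfl | rfl | rfl <;> exact p
  refine (mul_inv_eq_iff_eq_mul.2 (ext5 fun _ _ _ _ _ => ?_)).symm ▸ mg_U q
  rcases fin8 i with rfl | rfl | rfl | rfl | rfl | rfl | rfl | rfl <;>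
  · simp only [Fin.reduceSub] at q
    simp only [Perm.mul_apply, nw_ap, mg_ap p, mg_ap q, Fin.reduceSub, Matrix.cons_val]
theorem Um_n1 (k : K) : ∀ i, cj[nw (mx k) 1] (Um k i) = Um k (6 - i) := Um_ref (nw_sq k 1) fun i => cj_U fun n ζ p => by
  have q : Mk k (6 - i) (if i = 3 ∨ i = 7 then sk k n else n) ζ := by
    rcases fin8 i with rfl | rfl | rfl | rfl | rfl | rfl | rfl | rfl <;> exact p
  refine (mul_inv_eq_iff_eq_mul.2 (ext5 fun _ _ _ _ _ => ?_)).symm ▸ mg_U q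
  rcases fin8 i with rfl | rfl | rfl | rfl | rfl | rfl | rfl | rfl <;>
  · simp +decide only [Fin.reduceSub, if_true, if_false] at q
    simp +decide only [Perm.mul_apply, nw_ap, mg_ap p, mg_ap q, Fin.reduceSub, Matrix.cons_val, if_true, if_false, sk_sk]
theorem Um_rot (k : K) : ∃ r, r ∈ closure (Set.range (nw (mx k))) ∧ ∀ i, cj[r] (Um k i) = Um k (i + 2) :=
  ⟨nw (mx k) 1 * nw (mx k) 4, mul_mem (subset_closure ⟨_, rfl⟩) (subset_closure ⟨_, rfl⟩), fun i => by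
    rw [cj_mul, Um_n4, Um_n1]; congr 1; revert i; decide⟩

theorem cj02 (p : Mk k 0 n ζ) (q : Mk k 2 n' ζ') : mg k 0 n ζ * mg k 2 n' ζ' * (mg k 0 n ζ)⁻¹ = mg k 1 (n' * sk k n) 0 * mg k 2 n' ζ' :=
  mul_inv_eq_iff_eq_mul.2 (ext5 fun _ _ _ _ _ => by
    simp only [Perm.mul_apply, mg_ap p, mg_ap q, mg_ap (mk_odd (i := 1) (by decide) _), Matrix.cons_val, v5, map_mul, sk_sk]; grind)
theorem mk03 (p : Mk k 0 n ζ) (a : KK k) : Mk k 2 (a * n) (a * sk k a * sk k ζ) := by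
  simp +decide only [mk_even, map_mul, sk_sk] at p ⊢; grind
theorem cj03 (p : Mk k 0 n ζ) (a : KK k) : mg k 0 n ζ * mg k 3 a 0 * (mg k 0 n ζ)⁻¹ =
    mg k 1 (a * ζ) 0 * mg k 2 (a * n) (a * sk k a * sk k ζ) * mg k 3 a 0 :=
  mul_inv_eq_iff_eq_mul.2 (ext5 fun _ _ _ _ _ => by
    simp only [Perm.mul_apply, mg_ap p, mg_ap (mk03 p a), mg_ap (mk_odd (i := 1) (by decide) _), mg_ap (mk_odd (i := 3) (by decide) _),
      Matrix.cons_val, v5, map_mul, sk_sk]
    simp +decide only [mk_even] at p; grind)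
theorem mk13 (a b : KK k) : Mk k 2 0 (b * sk k a + sk k b * a) := by
  simp +decide only [mk_even, map_mul, map_add, sk_sk]; grind
theorem cj13 (a b : KK k) : mg k 1 a 0 * mg k 3 b 0 * (mg k 1 a 0)⁻¹ = mg k 2 0 (b * sk k a + sk k b * a) * mg k 3 b 0 :=
  mul_inv_eq_iff_eq_mul.2 (ext5 fun _ _ _ _ _ => by
    simp only [Perm.mul_apply, mg_ap (mk13 a b), mg_ap (mk_odd (i := 1) (by decide) _), mg_ap (mk_odd (i := 3) (by decide) _),
      Matrix.cons_val, v5, map_zero]; grind)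
theorem mk14 (p : Mk k 4 n ζ) (a : KK k) : Mk k 2 (n * a) (a * sk k a * ζ) := by
  simp +decide only [mk_even, map_mul, sk_sk] at p ⊢; grind
theorem cj14 (p : Mk k 4 n ζ) (a : KK k) : mg k 1 a 0 * mg k 4 n ζ * (mg k 1 a 0)⁻¹ =
    mg k 2 (n * a) (a * sk k a * ζ) * mg k 3 (ζ * a) 0 * mg k 4 n ζ :=
  mul_inv_eq_iff_eq_mul.2 (ext5 fun _ _ _ _ _ => by
    simp only [Perm.mul_apply, mg_ap p, mg_ap (mk14 p a), mg_ap (mk_odd (i := 1) (by decide) _), mg_ap (mk_odd (i := 3) (by decide) _),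
      Matrix.cons_val, v5, map_mul, sk_sk]
    simp +decide only [mk_even] at p; grind)
theorem Um_nrm {W : Subgroup (Perm (Fin 5 → KK k))} (h : ∀ n ζ, Mk k i n ζ → cj[mg k i n ζ] W ≤ W) : Um k i ≤ 𝐍(W) :=
  le_normalizer_iff_cj.2 fun g m => by obtain ⟨_, _, p, rfl⟩ := mem_Um.1 m; exact h _ _ p
theorem cj_adj (p : Mk k i n ζ) : cj[mg k i n ζ] (Um k (i + 1)) ≤ Um k (i + 1) :=
  (cj_eq_self (centralizer_le_normalizer _ (U_adj k i (mg_U p)))).le
theorem Um_1 (n : KK k) : mg k 1 n 0 ∈ Um k 1 := mg_U (mk_odd (by decide) n)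
theorem Um_3 (n : KK k) : mg k 3 n 0 ∈ Um k 3 := mg_U (mk_odd (by decide) n)
theorem Um_c2 (k : K) : ∀ i, Um k i ≤ 𝐍(Um k (i + 1) ⊔ Um k (i + 2)) := by
  obtain ⟨r, -, e⟩ := Um_rot k
  refine par2 (fun i h => by simpa only [cj_sup, cj_normalizer, e, add_right_comm _ _ (2 : Fin 8)] using cj_mono r h) ?_ ?_ <;>
  refine Um_nrm fun n ζ p => (cj_sup ..).le.trans (sup_le ((cj_adj p).trans le_sup_left) (cj_U fun n' ζ' q => ?_))
  · exact cj02 p q ▸ mul_mem_sup (Um_1 _) (mg_U q)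
  · obtain rfl := p.z (by decide)
    obtain rfl := q.z (by decide)
    exact cj13 n n' ▸ mul_mem_sup (mg_U (mk13 _ _)) (mg_U q)
theorem Um_n0 (k : K) : ∀ i, Um k i ≤ 𝐍(Ws (Um k) i) := by
  obtain ⟨r, -, e⟩ := Um_rot k
  refine par2 (fun i h => by simpa only [Ws, cj_sup, cj_normalizer, e, add_right_comm _ _ (2 : Fin 8)] using cj_mono r h) ?_ ?_ <;>
  refine Um_nrm fun n ζ p => (cj_sup ..).le.trans (sup_le ((cj_eq_self (Um_c2 k _ (mg_U p))).le.trans le_sup_left) (cj_U fun n' ζ' q => ?_))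
  · obtain rfl := q.z (by decide)
    exact cj03 p n' ▸ mul_mem_sup (mul_mem_sup (Um_1 _) (mg_U (mk03 p _))) (mg_U q)
  · obtain rfl := p.z (by decide)
    exact cj14 q n ▸ mul_mem_sup (mul_mem_sup (mg_U (mk14 q _)) (Um_3 _)) (mg_U q)
theorem Wm_nf (h : g ∈ Ws (Um k) i) : ∃ a ∈ Um k (i + 1), ∃ b ∈ Um k (i + 2), ∃ c ∈ Um k (i + 3), g = a * (b * c) := by
  have e : i + 1 + 1 = i + 2 ∧ i + 1 + 2 = i + 3 ∧ i + 2 + 1 = i + 3 := by clear h; revert i; decide
  have a := Um_c2 k (i + 1)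
  have b := (U_adj k (i + 2)).trans (centralizer_le_normalizer _)
  rw [e.1, e.2.1] at a
  rw [e.2.2] at b
  rw [Ws, sup_assoc] at h
  obtain ⟨a, p, _, q, rfl⟩ := (mem_sup_of_le_normalizer' a).1 h
  obtain ⟨b, q', c, r, rfl⟩ := (mem_sup_of_le_normalizer' b).1 q
  exact ⟨a, p, b, q', c, r, rfl⟩
theorem Vm_nf (h : g ∈ Vs (Um k) i) : ∃ u ∈ Um k i, ∃ a ∈ Um k (i + 1), ∃ b ∈ Um k (i + 2), ∃ c ∈ Um k (i + 3), g = u * (a * (b * c)) := by
  obtain ⟨u, p, _, q, rfl⟩ := (mem_sup_of_le_normalizer' (Um_n0 k i)).1 (by simpa only [Vs, Ws, sup_assoc] using h)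
  obtain ⟨a, q', b, r, c, s, rfl⟩ := Wm_nf q
  exact ⟨u, p, a, q', b, r, c, s, rfl⟩
theorem Um_der (k : K) (o : Even i.val) : Um k (i + 1) ≤ ⁅Um k i, Um k (i + 2)⁆ := by
  obtain ⟨r, -, e⟩ := Um_rot k
  refine par_ind (p := fun i => Um k (i + 1) ≤ ⁅Um k i, Um k (i + 2)⁆) (i := 0)
    (fun i h => by simpa only [cj_commutator, e, add_right_comm _ _ (2 : Fin 8)] using cj_mono r h) (Um_le fun n ζ p => ?_)
    (iff_of_true o (by decide))
  obtain rfl := p.z (by decide)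
  have a := mk_om (k := k) (i := 0) (by decide) 1
  have b := mk_om (i := 2) (by decide) n
  have := commutator_mem_commutator (mg_U a) (mg_U b)
  rwa [commutatorElement_def, cj02 a b, mul_inv_cancel_right, map_one, mul_one] at this

theorem oc_m (k : K) : Oc (Um k) := by
  obtain ⟨r, -, e⟩ := Um_rot k
  have s : ∀ i k : Fin 8, i - k + 2 = i + 2 - k := fun i k => sub_add_eq_add_sub ..
  refine ⟨Um_n0 k, fun i => ?_, fun i => par_ind (p := fun i => Um k i ≤ Um k (i - 1) ⊔ Um k (i + 1) ⊔ Um k (i + 2))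
    (i := if Even i.val then 2 else 1) (fun i h => ?_) ?_ (by revert i; decide), par2 (fun i h => ?_) ?_ ?_, par2 (fun i h => ?_) ?_ ?_⟩
  · have := cj_mono (nw (mx k) 4) (Um_n0 k (-i))
    have d : 4 - -i = i + 4 ∧ 4 - (-i + 1) = i + 3 ∧ 4 - (-i + 2) = i + 2 ∧ 4 - (-i + 3) = i + 1 := by clear this; revert i; decide
    simp only [Ws, cj_sup, cj_normalizer, Um_n4, d] at this
    rwa [Ws, sup_comm, sup_comm (Um k (i + 1)), ← sup_assoc]
  · simpa only [cj_sup, e, add_right_comm _ _ (2 : Fin 8), s] using cj_mono r h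
  · split_ifs <;> refine Um_le fun n ζ p => ?_
    · have := cj14 (n := n) (ζ := ζ) p 1
      simp only [map_one, mul_one, one_mul, ← mul_inv_eq_iff_eq_mul] at this
      have a : mg k 1 1 0 ∈ Um k 1 ⊔ Um k 3 ⊔ Um k 4 := mem_sup_left (mem_sup_left (Um_1 _))
      have b : mg k 4 n ζ ∈ Um k 1 ⊔ Um k 3 ⊔ Um k 4 := mem_sup_right (mg_U p)
      exact this ▸ mul_mem (mul_mem (mul_mem (mul_mem a b) (inv_mem a)) (inv_mem b)) (inv_mem (mem_sup_left (mem_sup_right (Um_3 _))))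
    · obtain rfl := p.z (by decide)
      have q : Mk k 0 0 1 := by simp +decide [mk_even, CharTwo.add_self_eq_zero]
      have := cj03 q n
      rw [mul_one, ← mul_inv_eq_iff_eq_mul, ← mul_inv_eq_iff_eq_mul] at this
      have a : mg k 0 0 1 ∈ Um k 0 ⊔ Um k 2 ⊔ Um k 3 := mem_sup_left (mem_sup_left (mg_U q))
      have b : mg k 3 n 0 ∈ Um k 0 ⊔ Um k 2 ⊔ Um k 3 := mem_sup_right (Um_3 _)
      exact this ▸ mul_mem (mul_mem (mul_mem (mul_mem a b) (inv_mem a)) (inv_mem b))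
        (inv_mem (mem_sup_left (mem_sup_right (mg_U (mk03 q _)))))
  · simpa only [Ws, cj_sup, cj_inf, cj_bot, e, add_right_comm _ _ (2 : Fin 8)] using congrArg (cj[r] ·) h
  rotate_left 2
  · simpa only [Vs, cj_sup, cj_commutator, e, add_right_comm _ _ (2 : Fin 8)] using cj_mono r h
  · exact (Um_der k (by decide)).trans (commutator_mono (le_sup_left.trans (le_sup_left.trans le_sup_left)) (le_sup_right.trans le_sup_left))
  · refine Um_le fun n ζ p => ?_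
    have := cj14 (n := n) (ζ := ζ) p 1
    simp only [map_one, mul_one, one_mul, ← mul_inv_eq_iff_eq_mul] at this
    exact this ▸ mul_mem (commutator_mem_commutator (mem_sup_left (mem_sup_left (mem_sup_left (Um_1 _)))) (mem_sup_right (mg_U p)))
      (inv_mem (commutator_mono (le_sup_right.trans (le_sup_left.trans le_sup_left)) le_sup_right (Um_der (i := 2) k (by decide) (Um_3 _))))
  all_goals
    refine eq_bot_iff.2 fun g ⟨l, w⟩ => ?_
    obtain ⟨_, a', _, b', _, c', rfl⟩ := Wm_nf w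
    obtain ⟨a₁, a₂, a, rfl⟩ := mem_Um.1 a'
    obtain ⟨b₁, b₂, b, rfl⟩ := mem_Um.1 b'
    obtain ⟨c₁, c₂, c, rfl⟩ := mem_Um.1 c'
    simp only [Fin.reduceAdd] at *
  · have : Um k 0 ⊔ Um k 4 ≤ Cmm fun x => ![0, 0, 0, 0, x 4] := sup_le (Um_le fun _ _ p x => ?_) (Um_le fun _ _ p x => ?_)
    · have h := this l ![0, 0, 0, 0, 1]
      refine ext5 fun _ _ _ _ _ => ?_
      simp only [Perm.mul_apply, Perm.one_apply, mg_ap a, mg_ap b, mg_ap c, Matrix.cons_val, v5] at h ⊢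
      obtain rfl : a₁ = 0 := by grind
      obtain rfl : b₁ = 0 := by grind
      obtain rfl : c₁ = 0 := by grind
      simp only [map_zero] at h ⊢; grind
    all_goals
      obtain ⟨_, _, _, _, _, rfl⟩ := ex5 x
      simp only [mg_ap p, Matrix.cons_val, v5]; grind
  · have : Um k 1 ⊔ Um k 5 ≤ Cmm fun x => ![0, 0, 0, x 3, x 4] := sup_le (Um_le fun _ _ p x => ?_) (Um_le fun _ _ p x => ?_)
    · have h := this l ![0, 0, 0, 0, 1]
      have h' := this l ![0, 0, 0, 1, 0]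
      refine ext5 fun _ _ _ _ _ => ?_
      simp only [Perm.mul_apply, Perm.one_apply, mg_ap a, mg_ap b, mg_ap c, Matrix.cons_val, v5] at h h' ⊢
      obtain rfl : a₁ = 0 := by grind
      obtain rfl : b₁ = 0 := by grind
      obtain rfl : c₁ = 0 := by grind
      simp only [map_zero] at h h' ⊢; grind
    all_goals
      obtain ⟨_, _, _, _, _, rfl⟩ := ex5 x
      simp only [mg_ap p, Matrix.cons_val, v5]; grind

theorem Um_dg {a b c d e : KK k} (h : ∀ p q r s t, g ![p, q, r, s, t] = ![a * p, b * q, c * r, d * s, e * t]) (h₀ : a * sk k e = 1)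
    (h₁ : b * sk k d = 1) (h₂ : c * sk k c = 1) (j : Fin 8) : cj[g] (Um k j) = Um k j := by
  have : Finite (KK k) := Finite.of_equiv _ (QuadraticAlgebra.equivProd k (1 : K)).symm
  have h₃ := congrArg (sk k) h₀
  have h₄ := congrArg (sk k) h₁
  simp only [map_mul, map_one, sk_sk] at h₃ h₄
  refine cj_eq_self (mem_normalizer_of_cj_le (cj_U fun n ζ p => ?_))
  have q : Mk k j (![sk k d * c, sk k a * d, sk k a * c, sk k a * b, sk k b * c, sk k b * e, sk k e * c, sk k d * e] j * n)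
      (![d * sk k d, 0, a * sk k a, 0, b * sk k b, 0, e * sk k e, 0] j * ζ) := by
    rcases fin8 j with rfl | rfl | rfl | rfl | rfl | rfl | rfl | rfl <;>
    · simp +decide only [Mk, if_true, if_false, Matrix.cons_val, map_mul, sk_sk] at p ⊢; grind
  refine (mul_inv_eq_iff_eq_mul.2 (ext5 fun _ _ _ _ _ => ?_)).symm ▸ mg_U q
  rw [Perm.mul_apply, Perm.mul_apply, h, mg_ap p, mg_ap q]
  rcases fin8 j with rfl | rfl | rfl | rfl | rfl | rfl | rfl | rfl <;>
  · simp only [h, Matrix.cons_val, v5, map_mul, sk_sk]; grind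
theorem kk_unit (h : ∀ a, a * a + a ≠ k) {n : KK k} (e : n ≠ 0) : ∃ z, z * n = 1 ∧ sk k z * sk k n = 1 := by
  have : Fact (∀ r : K, r ^ 2 ≠ k + 1 * r) := ⟨fun r e => h r (by grind)⟩
  exact ⟨n⁻¹, inv_mul_cancel₀ e, by rw [← map_mul, inv_mul_cancel₀ e, map_one]⟩
theorem kk_nm (h : ∀ a, a * a + a ≠ k) {n : KK k} (e : n * sk k n = 0) : n = 0 := by
  by_contra z
  obtain ⟨_, _, _⟩ := kk_unit h z
  grind
theorem V1_ap (h : g ∈ Vs (Um k) 1) : g ![1, 0, 0, 0, 0] = ![1, 0, 0, 0, 0] ∧ ∃ c, g ![0, 1, 0, 0, 0] = ![c, 1, 0, 0, 0] := by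
  obtain ⟨_, u', _, a', _, b', _, c', rfl⟩ := Vm_nf h
  obtain ⟨u₁, _, u, rfl⟩ := mem_Um.1 u'
  obtain ⟨_, _, a, rfl⟩ := mem_Um.1 a'
  obtain ⟨_, _, b, rfl⟩ := mem_Um.1 b'
  obtain ⟨_, _, c, rfl⟩ := mem_Um.1 c'
  simp only [Fin.reduceAdd] at *
  refine ⟨?_, sk k u₁, ?_⟩ <;> simp only [Perm.mul_apply, mg_ap u, mg_ap a, mg_ap b, mg_ap c, Matrix.cons_val, v5] <;> grind
theorem V5_ap (h : g ∈ Vs (Um k) 5) : g ![0, 0, 0, 0, 1] = ![0, 0, 0, 0, 1] ∧ ∃ c, g ![0, 0, 0, 1, 0] = ![0, 0, 0, 1, c] := by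
  obtain ⟨_, u', _, a', _, b', _, c', rfl⟩ := Vm_nf h
  obtain ⟨u₁, _, u, rfl⟩ := mem_Um.1 u'
  obtain ⟨_, _, a, rfl⟩ := mem_Um.1 a'
  obtain ⟨_, _, b, rfl⟩ := mem_Um.1 b'
  obtain ⟨_, _, c, rfl⟩ := mem_Um.1 c'
  simp only [Fin.reduceAdd] at *
  refine ⟨?_, u₁, ?_⟩ <;> simp only [Perm.mul_apply, mg_ap u, mg_ap a, mg_ap b, mg_ap c, Matrix.cons_val, v5] <;> grind

theorem of_m (n : ∀ a, a * a + a ≠ k) : Of (Um k) := by
  obtain ⟨r, -, e⟩ := Um_rot k
  refine ⟨oc_m k, fun i h => ?_, par2 (fun i h u m u1 => ?_) (fun u m u1 => ?_) fun u m u1 => ?_, eq_bot_iff.2 fun g ⟨l, w⟩ => ?_,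
    fun j h => ?_⟩
  · have := congrArg (· ![1, 1, 1, 1, 1]) (mem_bot.1 (h ▸ mx_U k i 1))
    rcases fin8 i with rfl | rfl | rfl | rfl | rfl | rfl | rfl | rfl <;>
    · simp only [mx_ap, Perm.one_apply, Matrix.cons_val, v5, map_one] at this; grind
  · rw [add_right_comm, ← e] at m
    obtain ⟨u, m, rfl⟩ := m
    obtain ⟨a, p, b, q, f⟩ := h u m fun z => u1 (by simp [z])
    refine ⟨_, e i ▸ conj_mem_cj r p, _, e i ▸ conj_mem_cj r q, fun j => ?_⟩
    rw [show r * a * r⁻¹ * (MulAut.conj r).toMonoidHom u * (r * b * r⁻¹) = r * (a * u * b) * r⁻¹ by simp [mul_assoc], cj_mul, cj_mul,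
      ← sub_add_cancel j 2, ← e, cj_inv_cj, f, e]
    congr 1; clear * -; revert i j; decide
  · obtain ⟨c, ζ, p, rfl⟩ := mem_Um.1 m
    have p' := (mk_even (by decide)).1 p
    obtain ⟨z, z1, z2⟩ := kk_unit n (n := ζ) fun z => u1 (by
      obtain rfl := kk_nm n (n := c) (by simpa [z] using p'.symm)
      rw [z, mg_zero])
    have a : Mk k 0 (c * z) (sk k z) := by simp +decide only [mk_even, map_mul, sk_sk]; grind
    have b : Mk k 0 (c * sk k z) (sk k z) := by simp +decide only [mk_even, map_mul, sk_sk]; grind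
    refine ⟨_, mg_U a, _, mg_U b, fun j => ?_⟩
    rw [← mul_one (_ * _), ← nw_sq k 4, ← mul_assoc, cj_mul, Um_n4]
    refine Um_dg (a := 1) (b := ζ) (c := sk k ζ * z) (d := sk k z) (e := 1) (fun _ _ _ _ _ => ?_) (by simp) ?_ ?_ _ <;>
    simp only [Fin.reduceAdd] at p <;>
    simp only [Perm.mul_apply, nw_ap, mg_ap p, mg_ap a, mg_ap b, Fin.reduceAdd, Matrix.cons_val, v5, map_mul, sk_sk] <;> grind
  · obtain ⟨c, ζ, p, rfl⟩ := mem_Um.1 m
    obtain rfl := p.z (by decide)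
    obtain ⟨z, z1, z2⟩ := kk_unit n (n := c) fun z => u1 (by rw [z, mg_zero])
    refine ⟨_, Um_1 z, _, Um_1 z, fun j => ?_⟩
    rw [← mul_one (_ * _), ← nw_sq k 1, ← mul_assoc, cj_mul, Um_n1]
    refine Um_dg (a := sk k z) (b := sk k c) (c := 1) (d := z) (e := c) (fun _ _ _ _ _ => ?_) z2 (by grind) (by simp) _
    simp only [Fin.reduceAdd] at p
    simp only [Perm.mul_apply, nw_ap, mg_ap p, mg_ap (mk_odd (i := 1) (by decide) _), Fin.reduceAdd, Matrix.cons_val, v5]; grind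
  · have f : ∀ i, i = 5 ∨ i = 6 ∨ i = 7 ∨ i = 0 → ∀ v ∈ Um k i, v (g ![0, 0, 0, 0, 1]) = g ![0, 0, 0, 0, 1] ∧
        ∃ c, v (g ![0, 0, 0, 1, 0]) = g ![0, 0, 0, 1, c] := fun i h v m => by
      have : v ∈ Vs (Um k) 5 := by
        rcases h with rfl | rfl | rfl | rfl
        exacts [mem_sup_left (mem_sup_left (mem_sup_left m)), mem_sup_left (mem_sup_left (mem_sup_right m)),
          mem_sup_left (mem_sup_right m), mem_sup_right m]
      simpa only [Perm.mul_apply, Perm.inv_eq_iff_eq] using V5_ap (conj_mem_of_mem_normalizer' w this)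
    have o6 := mk_om (k := k) (i := 6) (by decide) 1
    have o0 := mk_om (k := k) (i := 0) (by decide) 1
    rw [map_one, one_mul, one_mul] at o0 o6
    have f1 := (f _ (by simp) _ (mx_U k 5 1)).1
    have f2 := (f _ (by simp) _ (mx_U k 6 1)).1
    have f3 := (f _ (by simp) _ (mx_U k 7 1)).1
    have f4 := (f _ (by simp) _ (mg_U o6)).1
    obtain ⟨_, f5⟩ := (f _ (by simp) _ (mx_U k 0 1)).2
    obtain ⟨_, f6⟩ := (f _ (by simp) _ (mg_U o0)).2
    clear f w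
    obtain ⟨_, u', _, a', _, b', _, c', rfl⟩ := Vm_nf l
    obtain ⟨u₁, _, u, rfl⟩ := mem_Um.1 u'
    obtain ⟨a₁, _, a, rfl⟩ := mem_Um.1 a'
    obtain ⟨b₁, _, b, rfl⟩ := mem_Um.1 b'
    obtain ⟨c₁, _, c, rfl⟩ := mem_Um.1 c'
    simp only [Fin.reduceAdd] at *
    refine ext5 fun _ _ _ _ _ => ?_
    simp only [Perm.mul_apply, Perm.one_apply, mg_ap u, mg_ap a, mg_ap b, mg_ap c, mg_ap o0, mg_ap o6, mx_ap, map_one, Matrix.cons_val,
      v5] at f1 f2 f3 f4 f5 f6 ⊢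
    obtain rfl : u₁ = 0 := by grind
    obtain rfl : b₁ = 0 := by grind
    obtain rfl : a₁ = 0 := by grind
    simp only [map_zero] at *
    obtain rfl : c₁ = 0 := by grind
    simp only [map_zero] at *; grind
  · obtain ⟨a, c, b⟩ := V1_ap (h (mx_U k j 1))
    rcases fin8 j with rfl | rfl | rfl | rfl | rfl | rfl | rfl | rfl <;>
    simp only [mx_ap, Matrix.cons_val, v5, map_one] at a b <;> first | decide | grind

theorem gen_m (n : ∀ a, a * a + a ≠ k) : ⨆ i, Um k i = SU (sk k) 5 := by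
  have s := sk_iv k
  have iso : ∀ {u v : Fin 5 → KK k}, hf (sk k) u u = 0 → hf (sk k) v v = 0 → hf (sk k) u v = 0 → E (sk k) u v 0 ∈ SU (sk k) 5 :=
    fun a b c => by
      have := tv_pol s a b c (map_one _)
      rw [one_smul] at this
      exact this ▸ mul_mem (mul_mem (tv_SU _ _) (tv_SU _ _)) (tv_SU _ _)
  have od : ∀ i : Fin 8, Odd i.val → ∀ c, mg k i c 0 ∈ SU (sk k) 5 := fun i o c => by
    have := (mk_odd o c).ok
    exact iso this.vv (by simpa using this.tr.symm) this.vn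
  refine le_antisymm (iSup_le fun i => ?_) (SU_iso s fun v a o e => ?_)
  · obtain ⟨r, m, e⟩ := Um_rot k
    have x : ∀ i, mx k i 1 ∈ SU (sk k) 5 := fun i => by
      unfold mx; split_ifs with o
      exacts [od i o _, by rw [mg, zero_smul]; exact tv_SU _ _]
    replace m : r ∈ SU (sk k) 5 := (closure_le _).2 (by rintro _ ⟨i, rfl⟩; exact mul_mem (mul_mem (x _) (x _)) (x _)) m
    refine par_ind (p := fun i => Um k i ≤ SU (sk k) 5) (i := if Even i.val then 2 else 1) (fun i h => e i ▸ cj_le_of_mem m h) ?_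
      (by clear * -; revert i; decide)
    split_ifs <;> refine Um_le fun c ζ p => ?_
    · have p' := (mk_even (by decide)).1 p
      have a : hf (sk k) (bv 0 : Fin 5 → KK k) (bv 0) = 0 := by simp [hf5, bv5]
      have b : hf (sk k) ![0, 1, c, ζ, 0] ![0, 1, c, ζ, 0] = 0 := by simp only [hf5, Matrix.cons_val, map_one]; grind
      have d : hf (sk k) (bv 0) ![0, 1, c, ζ, 0] = 0 := by simp [hf5, bv5]
      have f : sk k (ζ + sk k ζ) = ζ + sk k ζ := by rw [map_add, sk_sk, add_comm]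
      convert mul_mem (mul_mem (mul_mem (iso a b d) (od 3 (by decide) 1)) (od 1 (by decide) ζ)) (tv_SU (bv 0) (ζ + sk k ζ)) using 1
      refine ext5 fun _ _ _ _ _ => ?_
      simp only [Perm.mul_apply, E_ap (ok_tv s a f), E_ap (ok_iso s a b (hf_swap s d))]
      simp only [mg_ap p, mg_ap (mk_odd (i := 1) (by decide) _), mg_ap (mk_odd (i := 3) (by decide) _), hf5, bv5, Matrix.cons_val, v5,
        Matrix.smul_cons, Matrix.smul_empty, smul_eq_mul, Matrix.cons_add_cons, Matrix.empty_add_empty, smul_zero, add_zero, map_zero,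
        map_one, Pi.zero_apply]
      grind
    · exact p.z (by decide) ▸ od 1 (by decide) c
  have h : ∀ {i g}, g ∈ Um k i → g ∈ ⨆ i, Um k i := fun m => mem_iSup_of_mem _ m
  have w : ∀ i, nw (mx k) i ∈ ⨆ i, Um k i := fun i => mul_mem (mul_mem (h (mx_U _ _ _)) (h (mx_U _ _ _))) (h (mx_U _ _ _))
  have sem : ∀ g ∈ ⨆ i, Um k i, Sem (sk k) 1 g := fun g m =>
    (iSup_le fun i => Um_le (H := GU (sk k) 5) fun _ _ _ => E_sem .. : ⨆ i, Um k i ≤ _) m
  have c : ∀ v : Fin 5 → KK k, hf (sk k) v v = 0 → v 4 ≠ 0 → ∃ g ∈ ⨆ i, Um k i, ∃ c : KK k, g v = c • bv 0 := fun v o e => by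
    obtain ⟨p, q, r, s, t, rfl⟩ := ex5 v
    obtain ⟨z, z1, z2⟩ := kk_unit n (n := t) e
    simp only [hf5, Matrix.cons_val] at o
    have m : Mk k 2 (r * z) (z * (p + sk k (q * z) * s + sk k (r * z) * r)) := by
      simp +decide only [mk_even, map_mul, map_add, sk_sk]; grind
    refine ⟨_, mul_mem (mul_mem (mul_mem (w 2) (h (mg_U m))) (h (Um_1 (s * z)))) (h (Um_3 (q * z))), t, ?_⟩
    simp only [Perm.mul_apply, nw_ap, mg_ap m, mg_ap (mk_odd (i := 1) (by decide) _), mg_ap (mk_odd (i := 3) (by decide) _), bv5,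
      Matrix.cons_val, v5, Matrix.smul_cons, Matrix.smul_empty, smul_eq_mul]
    grind
  obtain ⟨g, m, c, f⟩ : ∃ g ∈ ⨆ i, Um k i, ∃ c : KK k, g v = c • bv 0 := by
    have t : ∀ i, nw (mx k) i v 4 ≠ 0 → ∃ g ∈ ⨆ i, Um k i, ∃ c : KK k, g v = c • bv 0 := fun i e => by
      obtain ⟨g, m, c, f⟩ := c _ (((sem _ (w i)).form1 v v).trans o) e
      exact ⟨_, mul_mem m (w i), c, f⟩
    by_contra z
    have a0 := mt (t 0) z; have a1 := mt (t 1) z; have a2 := mt (t 2) z; have a3 := mt (t 3) z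
    obtain ⟨p, q, r, s, t, rfl⟩ := ex5 v
    simp only [nw_ap, Matrix.cons_val, not_not] at a0 a1 a2 a3
    obtain rfl := kk_nm n (n := r) (by simpa [hf5, a0, a1, a2, a3] using o)
    exact z ⟨1, one_mem _, 0, by simp [*]⟩
  have := tv_cj1 (sem g m) v a
  rw [f, tv_smul s (by simp [hf5, bv5]) e, mul_inv_eq_iff_eq_mul, ← eq_inv_mul_iff_mul_eq, ← mul_assoc] at this
  refine this ▸ mul_mem (mul_mem (inv_mem m) (h (i := 2) ?_)) m
  exact subset_closure ⟨0, _, fun o => absurd o (by decide), by rw [mg, zero_smul]; rfl⟩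

end CF.S4q
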