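import Cfsg.Agent.S4q.A

/-! A standard subgroup `Sp₄(q)`: a commutator group meets the centraliser in the root group. -/

set_option autoImplicit false
set_option linter.unusedSectionVars false

namespace CF.S4q.R2

open Subgroup CF.Loc CF.LX CF.Ud
open CF.Dbl (El)
open scoped commutatorElement

variable {X : Type*} [Group X] {R H D E : Subgroup X} {s a b : X}

theorem pow4 (h : ∀ y ∈ R, y * y ∈ 𝐂(R)) (i : a ∈ R) (j : b ∈ R) : (a * b) ^ 4 = a ^ 4 * b ^ 4 := by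
  have c := fun y k z l => (mem_centralizer_iff'.1 (h y k) z l : z * (y * y) = y * y * z)
  obtain ⟨u, e, k⟩ : ∃ u, b * a = u * (a * b) ∧ u ∈ 𝐂(R) := ⟨b * a * (b * a) * (b * b)⁻¹ * (a * a)⁻¹, by
    rw [show ∀ p, p * (b * b)⁻¹ * (a * a)⁻¹ * (a * b) = p * ((b * b)⁻¹ * a⁻¹) * b from fun p => by group,
      ← mul_inv_rev, c b j a i]; group, mul_mem (mul_mem (h _ (mul_mem j i)) (inv_mem (h _ j))) (inv_mem (h _ i))⟩
  have ua := mem_centralizer_iff'.1 k a i
  have ub := mem_centralizer_iff'.1 k b j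
  have u2 : u * u = 1 := by
    have := c a i b j
    rw [← mul_assoc, e, mul_assoc, mul_assoc, e, ← mul_assoc a, ua] at this
    simpa [← mul_assoc] using this
  have e2 : a * b * (a * b) = u * (a * a * (b * b)) := by
    rw [mul_assoc, ← mul_assoc b, e, ← mul_assoc, ← mul_assoc, ua]; group
  have e3 : a * a * (b * b) * u = u * (a * a * (b * b)) := mem_centralizer_iff'.1 k _ (mul_mem (mul_mem i i) (mul_mem j j))
  rw [show (a * b) ^ 4 = a * b * (a * b) * (a * b * (a * b)) by simp [pow_succ, mul_assoc], e2, mul_assoc, ← mul_assoc _ u, e3,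
    mul_assoc u, ← mul_assoc u, u2, one_mul, mul_assoc, ← mul_assoc (b * b), c a i _ (mul_mem j j)]
  simp [pow_succ, mul_assoc]

theorem cap [Finite X] (o : Odd (Nat.card H)) (dH : D ≤ H) (hD : H ≤ 𝐂(D)) (hR : H ≤ 𝐍(R)) (hE : H ≤ 𝐍(E)) (hs : H ≤ 𝐂₁(s))
    (rD : R ≤ 𝐂(D)) (rE : R ≤ 𝐂(E)) (dR : D ≤ R) (el : El E) (sR : s ∈ R) (s2 : s * s = 1)
    (z : ∀ y ∈ R, s⁻¹ * (y * s * y⁻¹) ∈ E) (k : ∀ y ∈ R, y ∈ 𝐂₁(s) → y ∈ D ⊔ E ∨ s * y ∈ D ⊔ E) (n : s ∉ D ⊔ E) :
    ⁅R, H⁆ ⊓ 𝐂₁(s) ≤ E := by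
  have dE : D ≤ 𝐍(E) := dH.trans hE
  have cR : D ⊔ E ≤ 𝐂(R) := sup_le (le_centralizer_iff.1 rD) (le_centralizer_iff.1 rE)
  have sq : ∀ y ∈ R, y * y ∈ D ⊔ E := fun y i => by
    have e : y * s * y⁻¹ = s * (s⁻¹ * (y * s * y⁻¹)) := by group
    have a := z y i
    generalize s⁻¹ * (y * s * y⁻¹) = w at a e
    have c := mem_centralizer_iff'.1 (rE i) w a
    have e2 : y * y * s * (y * y)⁻¹ = s := by
      rw [show y * y * s * (y * y)⁻¹ = y * (y * s * y⁻¹) * y⁻¹ by group, e,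
        show y * (s * w) * y⁻¹ = y * s * y⁻¹ * (y * w * y⁻¹) by group, e, ← c]
      simp [mul_assoc, el w a]
    refine (k _ (mul_mem i i) (mem_c1.2 (conj_eq_iff.1 e2))).elim id fun l => ?_
    have c2 := mem_centralizer_iff'.1 (cR l) y i
    have c3 : y * s = s * y := by simpa [← mul_assoc] using c2
    have e3 : s * y * (s * y) = y * y := by rw [mul_assoc, ← mul_assoc y, c3, ← mul_assoc, ← mul_assoc, s2, one_mul]
    exact (k y i (mem_c1.2 c3)).elim (fun l => mul_mem l l) fun l => e3 ▸ mul_mem l l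
  have p4 : ∀ y ∈ D ⊔ E, ∃ d ∈ D, ∃ e ∈ E, y = e * d ∧ y * y = d * d := fun y i => by
    obtain ⟨e, l, d, j, rfl⟩ := (mem_sup_of_le_normalizer dE).1 (sup_comm D E ▸ i)
    refine ⟨d, j, e, l, rfl, ?_⟩
    rw [mul_assoc, ← mul_assoc d, ← mem_centralizer_iff'.1 (rE (dR j)) e l, ← mul_assoc, ← mul_assoc, el e l, one_mul]
  let M : Subgroup X := ⟨⟨⟨{y | y ∈ R ∧ y ^ 4 = 1}, fun i j => ⟨mul_mem i.1 j.1, by
    rw [pow4 (fun y i => cR (sq y i)) i.1 j.1, i.2, j.2, one_mul]⟩⟩, one_mem _, one_pow _⟩,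
    fun i => ⟨inv_mem i.1, by rw [inv_pow, i.2, inv_one]⟩⟩
  have m : ⁅R, H⁆ ≤ M := commutator_le.2 fun a i h j => by
    have l := conj_mem_of_mem_normalizer (hR j) (inv_mem i)
    rw [commutatorElement_def, mul_assoc, mul_assoc, ← mul_assoc h]
    refine ⟨mul_mem i l, ?_⟩
    obtain ⟨d, u, -, -, -, e⟩ := p4 _ (sq a i)
    have : a ^ 4 = d * d := by rw [← e]; simp [pow_succ, mul_assoc]
    rw [pow4 (fun y i => cR (sq y i)) i l, conj_pow, inv_pow, this,
      conj_eq_of_mem_centralizer (hD j) (inv_mem (mul_mem u u)), mul_inv_cancel]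
  have hN : H ≤ 𝐍(D ⊔ E) := le_normalizer_sup ((centralizer_le_normalizer _).trans' hD) hE
  have rN : R ≤ 𝐍(D ⊔ E) := (le_centralizer_iff.1 cR).trans (centralizer_le_normalizer _)
  let π := QuotientGroup.mk' ((D ⊔ E).subgroupOf 𝐍(D ⊔ E))
  have π1 : ∀ y ∈ 𝐍(D ⊔ E), up π y = 1 ↔ y ∈ D ⊔ E := fun y i => by rw [up_eq i]; exact QuotientGroup.eq_one_iff _
  have eV : ∀ v ∈ im π R, v * v = 1 := fun v i => by
    obtain ⟨y, l, j, rfl⟩ := mem_im.1 i
    rw [← up_mul j j, π1 _ (mul_mem j j)]; exact sq y l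
  have : IsMulCommutative (im π R) := ⟨⟨fun u v => Subtype.ext (by
    have := fun w : im π R => inv_eq_of_mul_eq_one_right (eV _ w.2)
    simpa [this] using (this (u * v)).symm)⟩⟩
  have b := Coprime.inf_centralizer_inf_commutator_eq_bot (im π H) (im π R) (le_normalizer_iff_cj.2 fun g i => cj_le_iff_forall.2
    fun v j => by
      obtain ⟨g, l, i', rfl⟩ := mem_im.1 i
      obtain ⟨v, l', j', rfl⟩ := mem_im.1 j
      exact up_cj (φ := π) i' j' ▸ up_im (conj_mem_of_mem_normalizer (hR l) l') (mul_mem (mul_mem i' j') (inv_mem i'))) (by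
      obtain ⟨j, e⟩ := IsPGroup.iff_card.1 (show IsPGroup 2 (im π R) from fun v => ⟨1, Subtype.ext (by simpa [pow_two] using eV _ v.2)⟩)
      rw [e]
      exact (Odd.of_dvd_nat o ((card_map_dvd ..).trans (card_comap_dvd_of_injective _ _ (subtype_injective _)))).coprime_two_right.pow_right _)
  rintro y ⟨i, j⟩
  rcases k y (m i).1 j with l | l
  · obtain ⟨d, u, e, v, rfl, w⟩ := p4 y l
    have : d ^ 4 = 1 := by rw [← (m i).2, show (e * d) ^ 4 = e * d * (e * d) * (e * d * (e * d)) by simp [pow_succ, mul_assoc], w]; simp [pow_succ, mul_assoc]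
    have : orderOf d = 1 := Nat.eq_one_of_dvd_coprimes (o.coprime_two_right.pow_right 2) (orderOf_dvd_natCard _ (dH u))
      (orderOf_dvd_of_pow_eq_one this)
    rwa [orderOf_eq_one_iff.1 this, mul_one]
  · have yN := rN (m i).1
    have e : up π s * up π y = 1 := by rw [← up_mul (rN sR) yN, π1 _ (mul_mem (rN sR) yN)]; exact l
    refine absurd ((π1 _ (rN sR)).1 (mem_bot.1 (b.le ⟨⟨up_im sR (rN sR), fun g i => ?_⟩, ?_⟩))) n
    · obtain ⟨g, u, i', rfl⟩ := mem_im.1 i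
      rw [← up_mul i' (rN sR), mem_c1.1 (hs u), up_mul (rN sR) i']
    · rw [eq_inv_of_mul_eq_one_left e]
      refine Subgroup.inv_mem _ ?_
      rw [im, im, ← map_commutator, up_eq yN]
      refine mem_map_of_mem _ ?_
      rw [← mem_map_iff_mem (subtype_injective _), map_commutator, map_subgroupOf_eq_of_le rN, map_subgroupOf_eq_of_le hN]
      exact i

end CF.S4q.R2
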