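import Cfsg.Agent.S4q.A

/-! A standard subgroup `Sp₄(q)`, `q` even: graphs over an octagon give central extensions. -/

set_option autoImplicit false
set_option linter.unusedSectionVars false

namespace CF.S4q

open Subgroup Equiv CF.Loc CF.LX CF.Ud CF.Sq
open scoped commutatorElement

namespace Oz
theorem i8 : ∀ i : Fin 8, i + 4 + 4 = i := by decide
theorem ix : ∀ i j : Fin 8, j ≠ i → j ≠ i + 4 → (j = i + 1 ∨ j = i + 2 ∨ j = i + 3) ∨ (j = i + 4 + 1 ∨ j = i + 4 + 2 ∨ j = i + 4 + 3) := by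
  decide
theorem iy : ∀ i j : Fin 8, j = i ∨ j = i + 4 → (j - 1 ≠ i ∧ j - 1 ≠ i + 4) ∧ (j + 1 ≠ i ∧ j + 1 ≠ i + 4) ∧ j + 2 ≠ i ∧ j + 2 ≠ i + 4 := by
  decide
variable {Γ : Type*} [Group Γ] (J : Fin 8 → Subgroup Γ) (i : Fin 8)
theorem v0 : J i ≤ Vs J i := le_sup_left.trans (le_sup_left.trans le_sup_left)
theorem v1 : J (i + 1) ≤ Vs J i := le_sup_right.trans (le_sup_left.trans le_sup_left)
theorem v2 : J (i + 2) ≤ Vs J i := le_sup_right.trans le_sup_left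
theorem v3 : J (i + 3) ≤ Vs J i := le_sup_right
theorem w1 : J (i + 1) ≤ Ws J i := le_sup_left.trans le_sup_left
theorem w2 : J (i + 2) ≤ Ws J i := le_sup_right.trans le_sup_left
theorem w3 : J (i + 3) ≤ Ws J i := le_sup_right
theorem vw : Vs J i = Ws J i ⊔ J i := by simp only [Vs, Ws, sup_assoc, sup_comm]
theorem vw' : Vs J (i + 1) = Ws J i ⊔ J (i + 4) := by simp only [Vs, Ws, add_assoc]; rfl
theorem vj {j : Fin 8} (h : j = i ∨ j = i + 1 ∨ j = i + 2 ∨ j = i + 3) : J j ≤ Vs J i := by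
  rcases h with rfl | rfl | rfl | rfl
  exacts [v0 J _, v1 J _, v2 J _, v3 J _]
theorem wj {j : Fin 8} (h : j = i + 1 ∨ j = i + 2 ∨ j = i + 3) : J j ≤ Ws J i := by
  rcases h with rfl | rfl | rfl
  exacts [w1 J _, w2 J _, w3 J _]
theorem vle {S : Subgroup Γ} (h : ∀ j : Fin 8, j = i ∨ j = i + 1 ∨ j = i + 2 ∨ j = i + 3 → J j ≤ S) : Vs J i ≤ S :=
  sup_le (sup_le (sup_le (h _ (by simp)) (h _ (by simp))) (h _ (by simp))) (h _ (by simp))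

/-- elements permuting the octagon -/
def NN : Subgroup Γ where
  carrier := {n | ∃ w : Perm (Fin 8), (∀ j, w (j + 4) = w j + 4) ∧ ∀ j, cj[n] (J j) = J (w j)}
  one_mem' := ⟨1, fun _ => rfl, fun _ => cj_one _⟩
  mul_mem' := fun ⟨w, e, f⟩ ⟨w', e', f'⟩ => ⟨w * w', fun j => by simp [e, e'], fun j => by rw [cj_mul, f', f]; rfl⟩
  inv_mem' := fun ⟨w, e, f⟩ => ⟨w⁻¹, fun j => w.injective (by simp [e]), fun j => by
    rw [cj_eq_iff, inv_inv, f]; simp⟩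

/-- the reflections -/
def rf (i : Fin 8) : Perm (Fin 8) := Equiv.subLeft (2 * i + 4)

/-- the double cosets -/
def DC (g : Γ) : Prop := ∃ v ∈ Vs J 1, ∃ n ∈ NN J, ∃ v' ∈ Vs J 1, g = v * n * v'

variable {J i}
theorem DC.l {g v : Γ} (h : DC J g) (a : v ∈ Vs J 1) : DC J (v * g) := by
  obtain ⟨u, b, n, c, u', e, rfl⟩ := h
  exact ⟨v * u, mul_mem a b, n, c, u', e, by group⟩
theorem DC.r {g v : Γ} (h : DC J g) (a : v ∈ Vs J 1) : DC J (g * v) := by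
  obtain ⟨u, b, n, c, u', e, rfl⟩ := h
  exact ⟨u, b, n, c, u' * v, mul_mem e a, by group⟩
theorem dc_n {n : Γ} (h : n ∈ NN J) : DC J n := ⟨1, one_mem _, n, h, 1, one_mem _, by group⟩

/-- rank one decompositions -/
def R1 (J : Fin 8 → Subgroup Γ) : Prop :=
  ∀ i, ∀ u ∈ J (i + 4), u ≠ 1 → ∃ a ∈ J i, ∃ b ∈ J i, ∀ j, cj[a * u * b] (J j) = J (2 * i + 4 - j)

theorem nn_of {n : Γ} (h : ∀ j, cj[n] (J j) = J (2 * i + 4 - j)) : n ∈ NN J :=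
  ⟨rf i, fun j => by simp only [rf, subLeft_apply]; clear h; revert i j; decide, h⟩

theorem caseA (r : R1 J) (l : J i ≤ Vs J 1) {u n : Γ} (a : u ∈ J (i + 4)) (b : n ∈ NN J) (c : cj[n⁻¹] (J i) ≤ Vs J 1) :
    DC J (u * n) := by
  by_cases e : u = 1
  · rw [e, one_mul]; exact dc_n b
  obtain ⟨x, hx, y, hy, f⟩ := r i u a e
  have := ((dc_n (mul_mem (nn_of f) b)).l (inv_mem (l hx))).r (c (conj_mem_cj n⁻¹ (inv_mem hy)))
  convert this using 1; group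

theorem step (r : R1 J) {W : Subgroup Γ} (v : Vs J 1 = W ⊔ J i) (n0 : J i ≤ 𝐍(W)) (n4 : J (i + 4) ≤ 𝐍(W)) {u g : Γ}
    (a : u ∈ J (i + 4)) (h : DC J g) : DC J (u * g) := by
  obtain ⟨x, hx, n, hn, x', hx', rfl⟩ := h
  have l : J i ≤ Vs J 1 := v ▸ le_sup_right
  have lw : W ≤ Vs J 1 := v ▸ le_sup_left
  obtain ⟨w, hw, y, hy, rfl⟩ := (mem_sup_of_le_normalizer n0).1 (v ▸ hx)
  suffices k : DC J (u * y * n) by
    have := (k.l (lw (conj_mem_of_mem_normalizer (n4 a) hw))).r hx'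
    convert this using 1; group
  obtain ⟨s, e, f⟩ := inv_mem hn
  have : ∀ j : Fin 8, (j = 1 ∨ j = 1 + 1 ∨ j = 1 + 2 ∨ j = 1 + 3) ∨ (j + 4 = 1 ∨ j + 4 = 1 + 1 ∨ j + 4 = 1 + 2 ∨ j + 4 = 1 + 3) := by decide
  rcases this (s i) with c | c
  · have c' : cj[n⁻¹] (J i) ≤ Vs J 1 := f i ▸ vj J 1 c
    have := (caseA r l a hn c').r (c' (conj_mem_cj n⁻¹ hy))
    convert this using 1; group
  · have c' : cj[n⁻¹] (J (i + 4)) ≤ Vs J 1 := by rw [f, e]; exact vj J 1 c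
    by_cases y1 : y = 1
    · have := (dc_n hn).r (c' (conj_mem_cj n⁻¹ a))
      convert this using 1; rw [y1]; group
    obtain ⟨p, hp, q, hq, k⟩ := r (i + 4) y ((i8 i).symm ▸ hy) y1
    have k' : cj[((p * y * q) * q⁻¹ * q * n)⁻¹] (J i) ≤ Vs J 1 := by
      rw [inv_mul_cancel_right, mul_inv_rev, cj_mul]
      have : cj[(p * y * q)⁻¹] (J i) = J (i + 4) := by
        rw [cj_eq_iff, inv_inv, k]; congr 1; clear * -; revert i; decide
      rwa [this]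
    rw [inv_mul_cancel_right] at k'
    have := (caseA r l (mul_mem a (inv_mem hp)) (mul_mem (nn_of k) hn) k').r (c' (conj_mem_cj n⁻¹ (inv_mem hq)))
    convert this using 1; group

theorem bru (r : R1 J) (ne : J 5 ≠ ⊥) (n0 : ∀ i, J i ≤ 𝐍(Ws J i)) (n4 : ∀ i, J (i + 4) ≤ 𝐍(Ws J i))
    (gen : J 7 ≤ J 6 ⊔ J 0 ⊔ J 1) {g : Γ} (a : g ∈ ⨆ i, J i) : DC J g := by
  let H : Subgroup Γ :=
    { carrier := {g | ∀ s, DC J s → DC J (g * s) ∧ DC J (g⁻¹ * s)}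
      one_mem' := fun s h => by simpa using h
      mul_mem' := fun {a b} p q s h => ⟨by rw [mul_assoc]; exact (p _ (q s h).1).1, by
        rw [mul_inv_rev, mul_assoc]; exact (q _ (p s h).2).2⟩
      inv_mem' := fun {a} p s h => ⟨(p s h).2, by rw [inv_inv]; exact (p s h).1⟩ }
  have hV : Vs J 1 ≤ H := fun v a s h => ⟨h.l a, h.l (inv_mem a)⟩
  have h5 : J 5 ≤ H := fun v a s h =>
    ⟨step r (vw J 1) (n0 1) (n4 1) a h, step r (vw J 1) (n0 1) (n4 1) (inv_mem a) h⟩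
  have h0 : J 0 ≤ H := fun v a s h =>
    ⟨step (i := 4) r (vw' J 0) (n4 0) (n0 0) a h, step (i := 4) r (vw' J 0) (n4 0) (n0 0) (inv_mem a) h⟩
  have h1 : J 1 ≤ H := (v0 J 1).trans hV
  have h6 : J 6 ≤ H := by
    obtain ⟨⟨u, hu⟩, u1⟩ := (Subgroup.ne_bot_iff_exists_ne_one).1 ne
    obtain ⟨x, hx, y, hy, f⟩ := r 1 u hu fun e => u1 (Subtype.ext e)
    exact (f 0).symm.le.trans (cj_le_of_mem (mul_mem (mul_mem (h1 hx) (h5 hu)) (h1 hy)) h0)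
  have : ⨆ i, J i ≤ H := iSup_le fun i => by
    fin_cases i
    exacts [h0, h1, (v1 J 1).trans hV, (v2 J 1).trans hV, (v3 J 1).trans hV, h5, h6, gen.trans (sup_le (sup_le h6 h0) h1)]
  simpa using (this a 1 (dc_n (one_mem _))).1
end Oz

open Oz

variable {M X : Type*} [Group M] [Group X] {U : Fin 8 → Subgroup M} {J : Fin 8 → Subgroup (M × X)} {p : M × X} {i j : Fin 8}

namespace Gr
variable (c : Gr U J)
include c
theorem uq (a : p ∈ Vs J i) {p' : M × X} (b : p' ∈ Vs J i) (e : p.1 = p'.1) : p = p' :=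
  Prod.ext e (by simpa [mul_inv_eq_one] using c.gr i _ (mul_mem a (inv_mem b)) (by simp [e]))
theorem mV (i : Fin 8) : (Vs J i).map (MonoidHom.fst M X) = Vs U i := by simp only [Vs, Subgroup.map_sup, c.fst]
theorem mW (i : Fin 8) : (Ws J i).map (MonoidHom.fst M X) = Ws U i := by simp only [Ws, Subgroup.map_sup, c.fst]
theorem m1 (a : p ∈ J i) : p.1 ∈ U i := c.fst i ▸ ⟨p, a, rfl⟩
theorem ex {u : M} (a : u ∈ U i) : ∃ p ∈ J i, p.1 = u := by rwa [← c.fst] at a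
theorem lf {S : Subgroup (M × X)} (l : S ≤ Vs J i) (a : p ∈ Vs J i) (b : p.1 ∈ S.map (MonoidHom.fst M X)) : p ∈ S := by
  obtain ⟨q, hq, e⟩ := b
  exact c.uq (l hq) a e ▸ hq
theorem le {S T : Subgroup (M × X)} (l : S ≤ Vs J i) (l' : T ≤ Vs J i) (e : T.map (MonoidHom.fst M X) ≤ S.map (MonoidHom.fst M X)) :
    T ≤ S := fun p a => c.lf l (l' a) (e ⟨p, a, rfl⟩)
theorem nw {k : Fin 8} (l : Ws J i ≤ Vs J k) (l' : J j ≤ Vs J k) (n : U j ≤ 𝐍(Ws U i)) : J j ≤ 𝐍(Ws J i) :=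
  le_normalizer_iff_cj.2 fun h a => c.le l (cj_le_of_mem (l' a) l) (by
    rw [map_cj, c.mW]; exact (cj_eq_self (n (c.m1 a))).le)
theorem n0 (o : Oc U) (i : Fin 8) : J i ≤ 𝐍(Ws J i) := c.nw ((vw J i).ge.trans' le_sup_left) (v0 J i) (o.n0 i)
theorem n4 (o : Oc U) (i : Fin 8) : J (i + 4) ≤ 𝐍(Ws J i) :=
  c.nw ((vw' J i).ge.trans' le_sup_left) ((vw' J i).ge.trans' le_sup_right) (o.n4 i)
theorem gen (o : Oc U) (i : Fin 8) : J i ≤ J (i - 1) ⊔ J (i + 1) ⊔ J (i + 2) :=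
  c.le (i := i - 1) (sup_le (sup_le (v0 J _) (vj J _ (by revert i; decide))) (vj J _ (by revert i; decide)))
    (vj J _ (by revert i; decide)) (by simpa only [Subgroup.map_sup, c.fst] using o.gen i)
theorem lw (o : Oc U) (i : Fin 8) : J i ⊔ J (i + 4) ≤ 𝐍(Ws J i) := sup_le (c.n0 o i) (c.n4 o i)
theorem wv (i : Fin 8) : Ws J i ≤ Vs J i := (vw J i).ge.trans' le_sup_left
theorem cen {S : Subgroup (M × X)} (l : S ≤ Vs J i) (n : cj[p] S ≤ Vs J i) (e : p.1 = 1) : S ≤ 𝐂₁(p) := fun q a => by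
  have := c.uq (n (conj_mem_cj p a)) (l a) (by simp [e])
  rw [mem_centralizer_singleton_iff, ← mul_inv_eq_iff_eq_mul.1 this]
end Gr

theorem Oz.cs {Γ : Type*} [Group Γ] {J : Fin 8 → Subgroup Γ} {p : Γ} (h : ∀ j, J j ≤ 𝐂₁(p)) : p ∈ 𝐂(⨆ i, J i) := fun q a =>
  mem_centralizer_singleton_iff.1 (iSup_le h a)

theorem Gr.st1 (o : Oc U) (c : Gr U J) (a : p ∈ Vs J i ⊔ J (i + 4)) (e : p.1 = 1) : p ∈ 𝐂(⨆ i, J i) := by
  rw [vw, sup_assoc] at a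
  obtain ⟨w, hw, l, hl, rfl⟩ := (mem_sup_of_le_normalizer (c.lw o i)).1 a
  have l1 : l.1 ∈ U i ⊔ U (i + 4) := by rw [← c.fst, ← c.fst, ← Subgroup.map_sup]; exact ⟨l, hl, rfl⟩
  have w1 : w.1 = 1 := by
    have : w.1 ∈ (U i ⊔ U (i + 4)) ⊓ Ws U i :=
      ⟨by rw [eq_inv_of_mul_eq_one_left (e : w.1 * l.1 = 1)]; exact Subgroup.inv_mem _ l1, c.mW i ▸ ⟨w, hw, rfl⟩⟩
    rwa [o.lev, mem_bot] at this
  obtain rfl : w = 1 := c.uq (c.wv i hw) (one_mem _) w1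
  rw [one_mul] at e ⊢
  have k : ∀ i, l ∈ J i ⊔ J (i + 4) → Ws J i ≤ 𝐂₁(l) := fun i hl => c.cen (c.wv i) ((cj_eq_self (c.lw o i hl)).le.trans (c.wv i)) e
  have k0 := k i hl
  have k4 := k (i + 4) (by rwa [i8, sup_comm])
  have k' : ∀ j, j ≠ i → j ≠ i + 4 → J j ≤ 𝐂₁(l) := fun j a b =>
    (ix i j a b).elim (fun h => (wj J _ h).trans k0) fun h => (wj J _ h).trans k4
  refine cs fun j => ?_
  by_cases a : j = i ∨ j = i + 4
  · obtain ⟨⟨a1, a2⟩, ⟨a3, a4⟩, a5, a6⟩ := iy i j a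
    exact (c.gen o j).trans (sup_le (sup_le (k' _ a1 a2) (k' _ a3 a4)) (k' _ a5 a6))
  · exact k' j (fun h => a (.inl h)) fun h => a (.inr h)

theorem Gr.rf (o : Oc U) (c : Gr U J) (a : p ∈ J i ⊔ J (i + 4)) (e : ∀ j, cj[p.1] (U j) = U (2 * i + 4 - j)) (j : Fin 8) :
    cj[p] (J j) = J (2 * i + 4 - j) := by
  have m : ∀ j, (cj[p] (J j)).map (MonoidHom.fst M X) = (J (2 * i + 4 - j)).map (MonoidHom.fst M X) := fun j => by
    rw [map_cj, c.fst, c.fst]; exact e j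
  have q : ∀ j k, cj[p] (J j) ≤ Vs J k → J (2 * i + 4 - j) ≤ Vs J k → cj[p] (J j) = J (2 * i + 4 - j) := fun j k a b =>
    le_antisymm (c.le b a (m j).le) (c.le a b (m j).ge)
  have k : ∀ i', p ∈ J i' ⊔ J (i' + 4) → ∀ j, J j ≤ Ws J i' → cj[p] (J j) ≤ Vs J i' := fun i' a j l =>
    (cj_le_of_mem_normalizer (c.lw o i' a) l).trans (c.wv i')
  have k' : ∀ j, j ≠ i → j ≠ i + 4 → cj[p] (J j) = J (2 * i + 4 - j) := fun j x y =>
    (ix i j x y).elim (fun h => q j i (k i a j (wj J _ h)) (vj J _ (by clear * - h; revert i j; decide))) fun h =>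
      q j (i + 4) (k _ (by rwa [i8, sup_comm]) j (wj J _ h)) (vj J _ (by clear * - h; revert i j; decide))
  by_cases b : j = i ∨ j = i + 4
  · obtain ⟨⟨a1, a2⟩, ⟨a3, a4⟩, a5, a6⟩ := iy i j b
    refine q j (j + 2) ((cj_mono p (c.gen o j)).trans ?_) (vj J _ (by clear * - b; revert i j; decide))
    rw [cj_sup, cj_sup, k' _ a1 a2, k' _ a3 a4, k' _ a5 a6]
    refine sup_le (sup_le (vj J _ ?_) (vj J _ ?_)) (vj J _ ?_) <;> clear * - b <;> revert i j <;> decide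
  · exact k' j (fun h => b (.inl h)) fun h => b (.inr h)

theorem Gr.r1 (o : Of U) (c : Gr U J) : R1 J := fun i u a n => by
  obtain ⟨x, hx, y, hy, f⟩ := o.rk1 i u.1 (c.m1 a) fun e => n (c.uq (v0 J _ a) (one_mem _) e)
  obtain ⟨x, hx', rfl⟩ := c.ex hx
  obtain ⟨y, hy', rfl⟩ := c.ex hy
  exact ⟨x, hx', y, hy', c.rf o.toOc (mul_mem (mul_mem (mem_sup_left hx') (mem_sup_right a)) (mem_sup_left hy')) f⟩

theorem Gr.st2 (o : Of U) (c : Gr U J) (a : p ∈ ⨆ i, J i) (e : p.1 = 1) : p ∈ 𝐂(⨆ i, J i) := by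
  obtain ⟨v, hv, n, hn, v', hv', rfl⟩ := bru (c.r1 o) (fun h => o.ne 5 (by rw [← c.fst, h, Subgroup.map_bot])) (c.n0 o.toOc)
    (c.n4 o.toOc) (c.gen o.toOc 7) a
  have mv : ∀ q ∈ Vs J 1, q.1 ∈ Vs U 1 := fun q h => c.mV 1 ▸ ⟨q, h, rfl⟩
  have n1 : n.1 ∈ Vs U 1 := by
    have : n.1 = v.1⁻¹ * (v * n * v').1 * v'.1⁻¹ := by simp [mul_assoc]
    rw [this, e, mul_one]; exact mul_mem (inv_mem (mv v hv)) (inv_mem (mv v' hv'))
  have k : ∀ n ∈ NN J, n.1 ∈ Vs U 1 → cj[n] (Vs J 1) ≤ Vs J 1 ∧ cj[n] (Vs J 5) ≤ Vs J 5 := fun n ⟨w, s, f⟩ n1 => by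
    have g : ∀ j : Fin 8, j = 1 ∨ j = 1 + 1 ∨ j = 1 + 2 ∨ j = 1 + 3 → w j = 1 ∨ w j = 2 ∨ w j = 3 ∨ w j = 4 := fun j h =>
      o.out _ (by rw [← c.fst, ← f, map_cj, c.fst]; exact cj_le_of_mem n1 (vj U 1 h))
    refine ⟨cj_le_iff.2 (vle J 1 fun j h => cj_le_iff.1 (f j ▸ vj J 1 (g j h))), cj_le_iff.2 (vle J 5 fun j h => cj_le_iff.1 ?_)⟩
    have := g (j + 4) (by revert j; decide)
    rw [s] at this
    rw [f]; refine vj J 5 ?_
    generalize w j = k at this; revert k; decide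
  have k5 : ∀ n ∈ NN J, n.1 ∈ Vs U 1 → cj[n.1] (Vs U 5) ≤ Vs U 5 := fun n a b => by
    have := Subgroup.map_mono (f := MonoidHom.fst M X) (k n a b).2
    rwa [map_cj, c.mV] at this
  have n0 : n.1 = 1 := by
    have : n.1 ∈ Vs U 1 ⊓ 𝐍(Vs U 5) := ⟨n1, cj_eq_self_iff.1 (le_antisymm (k5 n hn n1) (le_cj_iff.2 (k5 n⁻¹ (inv_mem hn) (inv_mem n1))))⟩
    rwa [o.opp, mem_bot] at this
  have c1 := c.cen le_rfl (k n hn n1).1 n0
  have c5 := c.cen le_rfl (k n hn n1).2 n0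
  have : v * v' = 1 := c.uq (mul_mem hv hv') (one_mem _) (by simpa [n0] using e)
  rw [mem_centralizer_singleton_iff.1 (c1 hv), mul_assoc, this, mul_one]
  refine cs fun j => ?_
  have : (j = 1 ∨ j = 1 + 1 ∨ j = 1 + 2 ∨ j = 1 + 3) ∨ (j = 5 ∨ j = 5 + 1 ∨ j = 5 + 2 ∨ j = 5 + 3) := by revert j; decide
  exact this.elim (fun h => (vj J _ h).trans c1) fun h => (vj J _ h).trans c5

theorem Gr.pf (o : Oc U) (c : Gr U J) : ⨆ i, J i ≤ ⁅⨆ i, J i, ⨆ i, J i⁆ := iSup_le fun i => by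
  have l : Vs J (i - 1) ≤ ⨆ i, J i := vle J _ fun j _ => le_iSup J j
  refine le_trans (c.le (i := i - 1) (commutator_le_self _) (vj J _ (by clear l; revert i; decide)) ?_) (commutator_mono l l)
  rw [map_commutator, c.mV, c.fst]; simpa using o.der (i - 1)

end CF.S4q
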